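import Cfsg.Agent.Lib.MatConj.ProjPrime

/-!
Class numbers of subgroups of index four.
-/

set_option autoImplicit false

namespace CfsgLib.MatConj

open Finset

theorem sum_eq_zero_of_sign {X : Type*} [Fintype X] (σ : X ≃ X) (f : X → ℤ)
    (h : ∀ x, f (σ x) = -f x) : ∑ x, f x = 0 := by
  have := σ.sum_comp f
  simp only [h, sum_neg_distrib] at this
  omega

variable {G : Type*} [Group G] [Finite G]

theorem card_mul_card_classes (P : G → Prop) (hP : ∀ g h, IsConj g h → P g → P h) :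
    Nat.card G * Nat.card {C : ConjClasses G // ∃ g, ConjClasses.mk g = C ∧ P g} =
      Nat.card {p : G × G // Commute p.1 p.2 ∧ P p.1} := by
  have : Fintype (ConjAct G) := Fintype.ofFinite G
  have h := burnside_pred (Z := ConjAct G) ConjClasses.mk ConjClasses.mk_surjective
    (fun a b => by
      rw [ConjClasses.mk_eq_mk_iff_isConj, isConj_comm, isConj_iff]
      exact Iff.rfl) fun C => ∃ g, ConjClasses.mk g = C ∧ P g
  rw [← Nat.card_sigma] at h
  refine h.trans (Nat.card_congr ⟨fun x => ⟨(x.2.1, ConjAct.ofConjAct x.1),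
    (mul_inv_eq_iff_eq_mul.1 x.2.2.2).symm, by
      obtain ⟨g, h1, h2⟩ := x.2.2.1
      exact hP _ _ (ConjClasses.mk_eq_mk_iff_isConj.1 h1) h2⟩,
    fun p => ⟨ConjAct.toConjAct p.1.2, p.1.1, ⟨_, rfl, p.2.2⟩, mul_inv_eq_iff_eq_mul.2 p.2.1.eq.symm⟩,
    fun _ => rfl, fun _ => rfl⟩)

theorem four_mul_card_conjClasses (φ δ : G →* ℤˣ) (N : Subgroup G) (hN : ∀ g, g ∈ N ↔ φ g = 1 ∧ δ g = 1)
    (hi : N.index = 4) {z : G} (hz : ∀ g, Commute z g) (h1 : φ z = 1) (h2 : δ z = -1) :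
    4 * Nat.card (ConjClasses N) = Nat.card (ConjClasses G) + 3 * Nat.card {C : ConjClasses G //
        ∃ g, ConjClasses.mk g = C ∧ ∀ c, Commute g c → φ c = 1} := by
  classical
  have := Fintype.ofFinite G
  let P := {p : G × G // Commute p.1 p.2}
  let sw : P ≃ P := ⟨fun p => ⟨(p.1.2, p.1.1), p.2.symm⟩, fun p => ⟨(p.1.2, p.1.1), p.2.symm⟩,
    fun _ => rfl, fun _ => rfl⟩
  let sh : P ≃ P := ⟨fun p => ⟨(p.1.1, p.1.1 * p.1.2), (Commute.refl _).mul_right p.2⟩,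
    fun p => ⟨(p.1.1, p.1.1⁻¹ * p.1.2), (Commute.refl _).inv_right.mul_right p.2⟩,
    fun p => by simp, fun p => by simp⟩
  let zz : P ≃ P := ⟨fun p => ⟨(z * p.1.1, p.1.2), (hz _).mul_left p.2⟩,
    fun p => ⟨(z⁻¹ * p.1.1, p.1.2), (hz _).inv_left.mul_left p.2⟩, fun p => by simp, fun p => by simp⟩
  have h3 : ∑ p : P, (φ p.1.1 : ℤ) = ∑ p : P, (φ p.1.2 : ℤ) := sw.sum_comp fun p => (φ p.1.2 : ℤ)
  have h4 : ∑ p : P, (φ p.1.1 : ℤ) * φ p.1.2 = ∑ p : P, (φ p.1.2 : ℤ) := by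
    simpa [sh] using sh.sum_comp fun p => (φ p.1.2 : ℤ)
  have h5 : ∑ p : P, (φ p.1.2 : ℤ) =
      Nat.card {p : G × G // Commute p.1 p.2 ∧ ∀ c, Commute p.1 c → φ c = 1} := by
    rw [Nat.card_congr (Equiv.subtypeProdEquivSigmaSubtype fun a b : G => Commute a b ∧
      ∀ c, Commute a c → φ c = 1), Nat.card_sigma, Nat.cast_sum,
      ← (Equiv.subtypeProdEquivSigmaSubtype fun a b : G => Commute a b).symm.sum_comp,
      Fintype.sum_sigma]
    refine sum_congr rfl fun x _ => ?_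
    change ∑ y : {y // Commute x y}, (φ y.1 : ℤ) = _
    by_cases h : ∀ c, Commute x c → φ c = 1
    · rw [Nat.card_congr (Equiv.subtypeEquivRight fun _ => and_iff_left h)]
      simp [fun y : {y // Commute x y} => h y.1 y.2]
    · obtain ⟨c, hc, hc'⟩ := not_forall₂.1 h
      rw [sum_eq_zero_of_sign (X := {y // Commute x y}) ((Equiv.mulLeft c).subtypeEquiv fun y =>
        ⟨hc.mul_right, fun h => by simpa using hc.inv_right.mul_right h⟩) (fun y => φ y.1)
        fun y => by simp [Int.units_ne_iff_eq_neg.1 hc']]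
      simp [h]
  have h6 := sum_eq_zero_of_sign zz (fun p => (1 + φ p.1.1) * (1 + φ p.1.2) * (1 + δ p.1.2) * δ p.1.1)
    fun p => by simp [zz, h1, h2]
  have h7 := sum_eq_zero_of_sign (sw.trans (zz.trans sw))
    (fun p => (1 + φ p.1.1) * (1 + φ p.1.2) * δ p.1.2) fun p => by simp [zz, sw, h1, h2]
  have h8 : ∑ p : P, (1 + φ p.1.1 : ℤ) * (1 + φ p.1.2) * (1 + δ p.1.2) * (1 + δ p.1.1) =
      16 * Nat.card {p : N × N // Commute p.1 p.2} := by
    rw [Nat.card_congr (show {p : N × N // Commute p.1 p.2} ≃ {p : P // p.1.1 ∈ N ∧ p.1.2 ∈ N} from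
      ⟨fun p => ⟨⟨(p.1.1, p.1.2), p.2.map N.subtype⟩, p.1.1.2, p.1.2.2⟩,
        fun p => ⟨(⟨_, p.2.1⟩, ⟨_, p.2.2⟩), Subtype.ext p.1.2⟩, fun _ => rfl, fun _ => rfl⟩),
      Nat.card_eq_fintype_card, Fintype.card_subtype, card_filter, Nat.cast_sum, mul_sum]
    refine sum_congr rfl fun p _ => ?_
    rcases Int.units_eq_one_or (φ p.1.1) with a | a <;> rcases Int.units_eq_one_or (φ p.1.2) with b | b <;>
      rcases Int.units_eq_one_or (δ p.1.1) with c | c <;>
      rcases Int.units_eq_one_or (δ p.1.2) with d | d <;> simp [hN, a, b, c, d]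
  have h9 := card_comm_eq_card_conjClasses_mul_card G
  have h10 := card_mul_card_classes (fun g => ∀ c, Commute g c → φ c = 1) fun g g' h h' c hc => by
    obtain ⟨u, rfl⟩ := isConj_iff.1 h
    have := h' (u⁻¹ * c * u) (by simpa [mul_assoc] using hc.conj u⁻¹)
    rwa [map_mul, map_mul, map_inv, inv_mul_cancel_comm] at this
  rw [card_comm_eq_card_conjClasses_mul_card] at h8
  rw [sum_congr rfl fun p _ => show _ = 1 + (φ p.1.1 : ℤ) + φ p.1.2 + φ p.1.1 * φ p.1.2 +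
    (1 + φ p.1.1) * (1 + φ p.1.2) * δ p.1.2 +
    (1 + φ p.1.1) * (1 + φ p.1.2) * (1 + δ p.1.2) * δ p.1.1 by ring] at h8
  simp only [h6, h7, sum_add_distrib, h3, h4, h5, ← h10, sum_const, card_univ,
    ← Nat.card_eq_fintype_card, h9, P, ← N.card_mul_index, hi, nsmul_one] at h8
  refine Nat.eq_of_mul_eq_mul_left (Nat.card_pos (α := N)) ?_
  zify at h8 ⊢
  linarith

end CfsgLib.MatConj
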