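import Cfsg.Agent.Lib.MatConj.DetCount

/-!
Classes of elements of prime order `r` in `PGL` and `PGU` when the scalars contain the `r`-th
roots of unity.
-/

set_option autoImplicit false

namespace CfsgLib.MatConj

open Polynomial Matrix Finset UniqueFactorizationMonoid

section General

theorem burnside_pred {Z X Y : Type*} [Group Z] [Fintype Z] [MulAction Z X] [Finite X] (π : X → Y)
    (hs : Function.Surjective π) (h : ∀ a b, π a = π b ↔ ∃ z : Z, z • b = a) (P : Y → Prop) :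
    Nat.card Z * Nat.card {y // P y} = ∑ z : Z, Nat.card {x // P (π x) ∧ z • x = x} := by
  classical
  let S : SubMulAction Z X := ⟨{x | P (π x)}, fun z x hx => by
    rwa [Set.mem_ofPred_eq, (h _ x).2 ⟨z, rfl⟩]⟩
  have := fun z : Z => Fintype.ofFinite (MulAction.fixedBy S z)
  have := Fintype.ofFinite (Quotient (MulAction.orbitRel Z S))
  have h1 := MulAction.sum_card_fixedBy_eq_card_orbits_mul_card_group Z S
  simp only [← Nat.card_eq_fintype_card] at h1
  rw [mul_comm, ← Nat.card_congr (Equiv.ofBijective (Quotient.lift (s := MulAction.orbitRel Z S)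
    (fun x => (⟨π x.1, x.2⟩ : {y // P y})) ?_) ⟨?_, ?_⟩), ← h1]
  · exact sum_congr rfl fun z _ => Nat.card_congr ⟨fun x => ⟨x.1.1, x.1.2, congrArg Subtype.val x.2⟩,
      fun x => ⟨⟨x.1, x.2.1⟩, Subtype.ext x.2.2⟩, fun _ => rfl, fun _ => rfl⟩
  · rintro _ x ⟨z, rfl⟩
    exact Subtype.ext ((h _ _).2 ⟨z, rfl⟩)
  · rintro ⟨a⟩ ⟨b⟩ hab
    obtain ⟨z, hz⟩ := (h _ _).1 (congrArg Subtype.val hab)
    exact Quotient.sound ⟨z, Subtype.ext hz⟩
  · rintro ⟨y, hy⟩
    obtain ⟨x, rfl⟩ := hs y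
    exact ⟨Quotient.mk _ ⟨x, hy⟩, rfl⟩

variable {G : Type*} [Group G]

theorem isConj_quotient_center_iff (g g' : G) : IsConj (g : G ⧸ Subgroup.center G) g' ↔
    ∃ z : Subgroup.center G, IsConj (z.1 * g') g := by
  constructor
  · intro h
    obtain ⟨c, hc⟩ := isConj_iff.1 h
    obtain ⟨c, rfl⟩ := QuotientGroup.mk_surjective c
    have h3 : g'⁻¹ * (c * g * c⁻¹) ∈ Subgroup.center G := QuotientGroup.eq.1 hc.symm
    refine ⟨⟨_, h3⟩, (isConj_iff.2 ⟨c, ?_⟩).symm⟩
    rw [← Subgroup.mem_center_iff.1 h3, mul_inv_cancel_left]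
  · rintro ⟨z, h⟩
    simpa [(QuotientGroup.eq_one_iff _).2 z.2] using
      ((QuotientGroup.mk' (Subgroup.center G)).map_isConj h).symm

theorem card_center_mul_card_classes' [Finite G] [Fintype (Subgroup.center G)]
    (P : G ⧸ Subgroup.center G → Prop) (hP : ∀ x y, IsConj x y → P x → P y) :
    Nat.card (Subgroup.center G) *
      Nat.card {C : ConjClasses (G ⧸ Subgroup.center G) // ∃ x, ConjClasses.mk x = C ∧ P x} =
      ∑ z : Subgroup.center G,
        Nat.card {C : ConjClasses G // ∃ g, ConjClasses.mk g = C ∧ P g ∧ IsConj (z.1 * g) g} := by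
  let _ := centerAction (G := G)
  rw [burnside_pred (ConjClasses.map (QuotientGroup.mk' (Subgroup.center G)))]
  · refine sum_congr rfl fun z _ => Nat.card_congr (Equiv.subtypeEquivRight fun C => ?_)
    obtain ⟨g, rfl⟩ := ConjClasses.exists_rep C
    refine ⟨fun ⟨⟨x, h1, h2⟩, h⟩ => ⟨g, rfl, hP _ _ (ConjClasses.mk_eq_mk_iff_isConj.1 h1) h2,
      ConjClasses.mk_eq_mk_iff_isConj.1 h⟩, fun ⟨g', h, h', h''⟩ => ?_⟩
    rw [← h]
    exact ⟨⟨_, rfl, h'⟩, ConjClasses.mk_eq_mk_iff_isConj.2 h''⟩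
  · rintro ⟨⟨g⟩⟩
    exact ⟨ConjClasses.mk g, rfl⟩
  · rintro ⟨g⟩ ⟨g'⟩
    exact ConjClasses.mk_eq_mk_iff_isConj.trans ((isConj_quotient_center_iff g g').trans
      (exists_congr fun _ => ConjClasses.mk_eq_mk_iff_isConj.symm))

theorem card_classes_order_prime_add_one [Finite G] {r : ℕ} (hr : r.Prime) :
    Nat.card {C : ConjClasses G // ∃ g, ConjClasses.mk g = C ∧ orderOf g = r} + 1 =
      Nat.card {C : ConjClasses G // ∃ g, ConjClasses.mk g = C ∧ g ^ r = 1} := by
  have := Fact.mk hr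
  have h := card_subtype_and_ne (fun C : ConjClasses G => ∃ g, ConjClasses.mk g = C ∧ g ^ r = 1)
    (a := ConjClasses.mk 1) ⟨1, rfl, one_pow r⟩
  have : Nonempty {C : ConjClasses G // ∃ g, ConjClasses.mk g = C ∧ g ^ r = 1} :=
    ⟨⟨_, 1, rfl, one_pow r⟩⟩
  rw [← Nat.sub_add_cancel (Nat.card_pos (α := {C : ConjClasses G // ∃ g, _ ∧ g ^ r = 1})), ← h]
  congr 1
  refine Nat.card_congr (Equiv.subtypeEquivRight fun C => ⟨?_, ?_⟩)
  · rintro ⟨g, rfl, hg⟩
    refine ⟨⟨g, rfl, hg ▸ pow_orderOf_eq_one g⟩, fun h => hr.ne_one ?_⟩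
    rw [← hg, isConj_one_left.1 (ConjClasses.mk_eq_mk_iff_isConj.1 h), orderOf_one]
  · rintro ⟨⟨g, rfl, hg⟩, h⟩
    exact ⟨g, rfl, orderOf_eq_prime hg fun h' => h (by rw [h'])⟩

theorem map_eq_iff_exists_nsmul {α : Type*} {σ : α → α} (hσ : Function.Injective σ)
    {T M : Multiset α} (hT : T.Nodup) (h1 : T.map σ = T) (h2 : ∀ a ∈ T, ∀ b ∈ T, ∃ k, σ^[k] a = b)
    (hM : ∀ a ∈ M, a ∈ T) : M.map σ = M ↔ ∃ c : ℕ, M = c • T := by
  classical
  refine ⟨fun h => ?_, fun ⟨c, hc⟩ => by rw [hc, Multiset.map_nsmul, h1]⟩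
  have h3 : ∀ k a, M.count (σ^[k] a) = M.count a := fun k a => by
    induction k with
    | zero => rfl
    | succ k ih => rw [Function.iterate_succ_apply', ← ih, ← h, Multiset.count_map_eq_count' _ _ hσ, h]
  rcases T.empty_or_exists_mem with rfl | ⟨a, ha⟩
  · exact ⟨0, Multiset.eq_zero_of_forall_notMem fun a h => by simpa using hM a h⟩
  refine ⟨M.count a, Multiset.ext.2 fun b => ?_⟩
  rw [Multiset.count_nsmul]
  by_cases hb : b ∈ T
  · obtain ⟨k, rfl⟩ := h2 a ha b hb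
    rw [h3, Multiset.count_eq_one_of_mem hT hb, mul_one]
  · rw [Multiset.count_eq_zero.2 hb, Multiset.count_eq_zero.2 (mt (hM b) hb), mul_zero]

theorem card_nsmul_deg {α : Type*} (T : Multiset α) (d : α → ℕ) {r : ℕ} (hr : 0 < r)
    (h : (T.map d).sum = r) (N : ℕ) :
    Nat.card {M : Multiset α // (M.map d).sum = N ∧ ∃ c : ℕ, M = c • T} = if r ∣ N then 1 else 0 := by
  have h1 : ∀ c : ℕ, ((c • T).map d).sum = c * r := fun c => by
    rw [Multiset.map_nsmul, Multiset.sum_nsmul, h, smul_eq_mul]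
  split_ifs with h2
  · obtain ⟨c, rfl⟩ := h2
    refine Nat.card_eq_one_iff_exists.2 ⟨⟨c • T, by rw [h1, mul_comm], c, rfl⟩, ?_⟩
    rintro ⟨_, h3, c', rfl⟩
    rw [h1, mul_comm] at h3
    exact Subtype.ext (by simp only [Nat.eq_of_mul_eq_mul_left hr h3])
  · refine Nat.card_eq_zero.2 (Or.inl ⟨?_⟩)
    rintro ⟨_, h3, c', rfl⟩
    exact h2 ⟨c', by rw [← h3, h1, mul_comm]⟩

end General

variable {F : Type*} [Field F] {n : Type*} [Fintype n] [DecidableEq n]

open Classical in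
/-- The monic irreducible factors of `X ^ r - a`. -/
noncomputable def kumFac (r : ℕ) (a : F) : Multiset F[X] := normalizedFactors (X ^ r - C a)

section Kummer

variable {r : ℕ} (hr : r.Prime) {ζ : F} (hζ : IsPrimitiveRoot ζ r) {a : F} (ha : a ≠ 0)
include hr

theorem mem_kumFac {π : F[X]} : π ∈ kumFac r a ↔ Irreducible π ∧ π.Monic ∧ π ∣ X ^ r - C a := by
  classical
  exact Polynomial.mem_normalizedFactors_iff (X_pow_sub_C_ne_zero hr.pos a)

theorem prod_kumFac : (kumFac r a).prod = X ^ r - C a := by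
  classical
  have h := monic_X_pow_sub_C a hr.ne_zero
  exact (prod_normalizedFactors_eq h.ne_zero).trans h.normalize_eq_self

theorem sum_natDegree_kumFac : ((kumFac r a).map natDegree).sum = r := by
  rw [← natDegree_multiset_prod_of_monic _ fun _ h => ((mem_kumFac hr).1 h).2.1, prod_kumFac hr,
    natDegree_X_pow_sub_C]

theorem kumFac_of_not (h : ∀ b, b ^ r ≠ a) : kumFac r a = {X ^ r - C a} := by
  classical
  rw [kumFac, normalizedFactors_irreducible (X_pow_sub_C_irreducible_of_prime hr h),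
    (monic_X_pow_sub_C a hr.ne_zero).normalize_eq_self]

include hζ

theorem mem_kumFac_of_pow {b : F} (h : b ^ r = a) {π : F[X]} :
    π ∈ kumFac r a ↔ ∃ c, c ^ r = a ∧ π = X - C c := by
  rw [mem_kumFac hr]
  refine ⟨fun ⟨h1, h2, h3⟩ => ?_, ?_⟩
  · rw [X_pow_sub_C_eq_prod hζ hr.pos h, h1.prime.dvd_finsetProd_iff] at h3
    obtain ⟨i, -, h3⟩ := h3
    exact ⟨_, by rw [mul_pow, ← pow_mul, mul_comm i, pow_mul, hζ.pow_eq_one, one_pow, one_mul, h],
      eq_of_monic_of_associated h2 (monic_X_sub_C _)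
        (h1.associated_of_dvd (irreducible_X_sub_C _) h3)⟩
  · rintro ⟨c, hc, rfl⟩
    exact ⟨irreducible_X_sub_C c, monic_X_sub_C c, dvd_iff_isRoot.2 (by simp [hc])⟩

omit hr in
theorem scaleRoots_X_pow_sub_C : (X ^ r - C a).scaleRoots ζ = X ^ r - C a := by
  ext i
  rw [coeff_scaleRoots, natDegree_X_pow_sub_C, coeff_sub, coeff_X_pow, coeff_C]
  split_ifs with h1 h2 h2 <;> simp [*, hζ.pow_eq_one]

include ha

theorem squarefree_X_pow_sub_C : Squarefree (X ^ r - C a) :=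
  have := NeZero.mk hr.ne_zero
  (separable_X_pow_sub_C a hζ.neZero'.out ha).squarefree

theorem nodup_kumFac : (kumFac r a).Nodup := by
  classical
  exact (squarefree_iff_nodup_normalizedFactors (X_pow_sub_C_ne_zero hr.pos a)).1
    (squarefree_X_pow_sub_C hr hζ ha)

theorem card_kum_inv (N : ℕ) : Nat.card {M : Multiset F[X] // (∀ π ∈ M, π ∈ kumFac r a) ∧
    (M.map natDegree).sum = N ∧ M.map (·.scaleRoots ζ) = M} = if r ∣ N then 1 else 0 := by
  have h0 := hζ.ne_zero hr.ne_zero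
  have h1 : Function.Injective fun f : F[X] => f.scaleRoots ζ := (scaleEquiv h0).injective
  have h2 : (kumFac r a).map (·.scaleRoots ζ) = kumFac r a := by
    refine Multiset.eq_of_le_of_card_le ((Multiset.le_iff_subset
      ((nodup_kumFac hr hζ ha).map h1)).2 fun π h => ?_) (Multiset.card_map _ _).ge
    obtain ⟨π, h', rfl⟩ := Multiset.mem_map.1 h
    obtain ⟨h3, h4, h5⟩ := (mem_kumFac hr).1 h'
    exact (mem_kumFac hr).2 ⟨(MulEquiv.irreducible_iff (scaleEquiv h0)).2 h3,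
      (monic_scaleRoots_iff _).2 h4, scaleRoots_X_pow_sub_C hζ (a := a) ▸ scaleRoots_dvd _ _ h5⟩
  have h3 : ∀ π ∈ kumFac r a, ∀ π' ∈ kumFac r a, ∃ k, (·.scaleRoots ζ)^[k] π = π' := by
    intro π h π' h'
    by_cases h4 : ∃ b, b ^ r = a
    · obtain ⟨b, hb⟩ := h4
      obtain ⟨c, hc, rfl⟩ := (mem_kumFac_of_pow hr hζ hb).1 h
      obtain ⟨c', hc', rfl⟩ := (mem_kumFac_of_pow hr hζ hb).1 h'
      have := NeZero.mk hr.ne_zero
      have h5 : c ≠ 0 := fun h => ha (by rw [← hc, h, zero_pow hr.ne_zero])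
      obtain ⟨k, -, hk⟩ := hζ.eq_pow_of_pow_eq_one (ξ := c' / c) (by rw [div_pow, hc, hc', div_self ha])
      refine ⟨k, ?_⟩
      rw [← mul_div_cancel₀ c' h5, ← hk]
      clear hk
      induction k with
      | zero => simp
      | succ k ih => rw [Function.iterate_succ_apply', ih, X_sub_C_scaleRoots, pow_succ, mul_assoc]
    · rw [kumFac_of_not hr (not_exists.1 h4), Multiset.mem_singleton] at h h'
      exact ⟨0, h.trans h'.symm⟩
  rw [← card_nsmul_deg _ _ hr.pos (sum_natDegree_kumFac hr (a := a))]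
  refine Nat.card_congr (Equiv.subtypeEquivRight fun M => ⟨fun ⟨h4, h5, h6⟩ =>
    ⟨h5, (map_eq_iff_exists_nsmul h1 (nodup_kumFac hr hζ ha) h2 h3 h4).1 h6⟩, ?_⟩)
  rintro ⟨h5, c, rfl⟩
  exact ⟨fun π h => Multiset.mem_of_mem_nsmul h, h5, by rw [Multiset.map_nsmul, h2]⟩

theorem card_kum_split {b : F} (hb : b ^ r = a) (N : ℕ) : Nat.card {M : Multiset F[X] //
    (∀ π ∈ M, π ∈ kumFac r a) ∧ (M.map natDegree).sum = N ∧ True} = r.multichoose N := by
  have h1 : ∀ M : Multiset F[X], (∀ π ∈ M, π ∈ kumFac r a) →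
      (M.map natDegree).sum = Multiset.card M := fun M h => by
    rw [Multiset.map_congr rfl (g := fun _ => 1) fun π h' => ?_]
    · simp
    · obtain ⟨c, -, rfl⟩ := (mem_kumFac_of_pow hr hζ hb).1 (h π h')
      exact natDegree_X_sub_C c
  have h2 := card_multiset_eq ⟨_, nodup_kumFac hr hζ ha⟩ N
  rw [card_mk, ← h1 _ fun _ h => h, sum_natDegree_kumFac hr] at h2
  exact (Nat.card_congr (Equiv.subtypeEquivRight fun M => and_congr_right fun h => by
    rw [h1 M h, and_true])).trans h2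

omit hζ ha in
theorem card_kum_not (hb : ∀ b, b ^ r ≠ a) (N : ℕ) : Nat.card {M : Multiset F[X] //
    (∀ π ∈ M, π ∈ kumFac r a) ∧ (M.map natDegree).sum = N ∧ True} = if r ∣ N then 1 else 0 := by
  rw [← card_nsmul_deg _ _ hr.pos (sum_natDegree_kumFac hr (a := a)), kumFac_of_not hr hb]
  refine Nat.card_congr (Equiv.subtypeEquivRight fun M => ⟨fun ⟨h4, h5, _⟩ =>
    ⟨h5, Multiset.card M, ?_⟩, ?_⟩)
  · rw [Multiset.nsmul_singleton]
    exact Multiset.eq_replicate_card.2 fun π h => Multiset.mem_singleton.1 (h4 π h)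
  · rintro ⟨h5, c, rfl⟩
    exact ⟨fun π h => Multiset.mem_of_mem_nsmul h, h5, trivial⟩

theorem card_classes_kum {G : Type*} [Monoid G] (ι : G →* Matrix n n F)
    (hconj : ∀ g g', IsConj (ι g) (ι g') → IsConj g g')
    (hex : ∀ s, Valid s → (∀ x ∈ s, x.1 ∈ kumFac r a) →
      Fintype.card n = (s.map fun x => x.1.natDegree * x.2).sum → ∃ g, edM (ι g) = s)
    (P : G → Prop) (Q : Multiset F[X] → Prop)
    (hPQ : ∀ g M, edM (ι g) = M.map (·, 1) → (P g ↔ Q M)) :
    Nat.card {C : ConjClasses G // ∃ g, ConjClasses.mk g = C ∧ ι g ^ r = a • 1 ∧ P g} =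
      Nat.card {M : Multiset F[X] // (∀ π ∈ M, π ∈ kumFac r a) ∧
        (M.map natDegree).sum = Fintype.card n ∧ Q M} := by
  have h1 : ∀ A : Matrix n n F, A ^ r = a • 1 ↔ aeval A (X ^ r - C a) = 0 := fun A => by
    simp [sub_eq_zero, Algebra.algebraMap_eq_smul_one]
  have h2 : ∀ A : Matrix n n F, A ^ r = a • 1 → edM A = ((edM A).map Prod.fst).map (·, 1) :=
    fun A h => by
      rw [Multiset.map_map]
      refine (Multiset.map_id _).symm.trans (Multiset.map_congr rfl fun x hx => Prod.ext rfl ?_)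
      exact ed_exp_eq_one (squarefree_X_pow_sub_C hr hζ ha)
        (by rw [aeval_toLin', (h1 A).1 h, map_zero]) hx
  have h3 : ∀ M : Multiset F[X], ((M.map (·, 1)).map fun x : F[X] × ℕ => x.1.natDegree * x.2).sum =
      (M.map natDegree).sum := fun M => by simp
  rw [card_conjClasses_eq_card_image _ (fun g => (edM (ι g)).map Prod.fst)]
  · refine Nat.card_congr (Equiv.subtypeEquivRight fun M => ⟨?_, fun ⟨h4, h5, h6⟩ => ?_⟩)
    · rintro ⟨g, ⟨h4, h5⟩, rfl⟩
      refine ⟨fun π h => ?_, by rw [← h3, ← h2 _ h4, card_eq_sum_edM (ι g)], (hPQ _ _ (h2 _ h4)).1 h5⟩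
      obtain ⟨x, hx, rfl⟩ := Multiset.mem_map.1 h
      obtain ⟨h6, h7, h8⟩ := edM_valid _ x hx
      exact (mem_kumFac hr).2 ⟨h6, h7, (dvd_pow_self _ h8.ne').trans
        ((aeval_eq_zero_iff_edM _ _).1 ((h1 _).1 h4) x hx)⟩
    · obtain ⟨g, hg⟩ := hex (M.map (·, 1)) (fun x hx => by
        obtain ⟨π, h, rfl⟩ := Multiset.mem_map.1 hx
        exact ⟨((mem_kumFac hr).1 (h4 π h)).1, ((mem_kumFac hr).1 (h4 π h)).2.1, one_pos⟩)
        (fun x hx => by
          obtain ⟨π, h, rfl⟩ := Multiset.mem_map.1 hx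
          exact h4 π h) (by rw [h3, h5])
      refine ⟨g, ⟨(h1 _).2 ((aeval_eq_zero_iff_edM _ _).2 fun x hx => ?_), (hPQ _ _ hg).2 h6⟩,
        by simp [hg]⟩
      rw [hg] at hx
      obtain ⟨π, h, rfl⟩ := Multiset.mem_map.1 hx
      simpa using ((mem_kumFac hr).1 (h4 π h)).2.2
  · intro g g' h h'
    refine ⟨fun h4 => by rw [isConj_iff_edM.1 (ι.map_isConj h4)], fun h4 => hconj _ _ ?_⟩
    rw [isConj_iff_edM, h2 _ h.1, h2 _ h'.1, h4]

end Kummer

theorem card_classes_proj [Finite F] [Nonempty n] {G : Type*} [Group G] (ι : G →* Matrix n n F)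
    (hι : Function.Injective ι) (Γ : Subgroup Fˣ) (s : Γ →* G) (hs : ∀ μ, ι (s μ) = (μ.1 : F) • 1)
    (hZ : ∀ g, g ∈ Subgroup.center G ↔ ∃ μ, s μ = g)
    (hconj : ∀ g g', IsConj (ι g) (ι g') → IsConj g g') {r : ℕ} (hr : r.Prime)
    (hrΓ : r ∣ Nat.card Γ) (hroot : ∀ (μ : Γ) (b : F), b ^ r = μ.1 → ∃ ν : Γ, b = ν.1)
    (hex : ∀ t, Valid t → (∀ x ∈ t, ∃ k, 0 < k ∧ ∃ μ : Γ, x.1 = X ^ k - C (μ.1 : F)) →
      Fintype.card n = (t.map fun x => x.1.natDegree * x.2).sum → ∃ g, edM (ι g) = t) :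
    Nat.card {C : ConjClasses (G ⧸ Subgroup.center G) // ∃ g, ConjClasses.mk g = C ∧
      orderOf g = r} * r + r + (if r ∣ Fintype.card n then 1 else 0) =
      r.multichoose (Fintype.card n) + r * r * if r ∣ Fintype.card n then 1 else 0 := by
  classical
  have : Finite G := Finite.of_injective ι hι
  have := Fintype.ofFinite (Subgroup.center G)
  have := Fintype.ofFinite Γ
  have := Fact.mk hr
  have h1 : Function.Injective s := fun a b h => by
    obtain ⟨i⟩ := ‹Nonempty n›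
    have := congrArg (fun g => ι g i i) h
    exact Subtype.ext (Units.ext (by simpa [hs] using this))
  let e : Γ ≃ Subgroup.center G := Equiv.ofBijective (fun μ => ⟨s μ, (hZ _).2 ⟨μ, rfl⟩⟩)
    ⟨fun a b h => h1 (congrArg Subtype.val h), fun z => ((hZ _).1 z.2).imp fun _ => Subtype.ext⟩
  have h2 : ∀ z : Γ, z ^ r = 1 → z ≠ 1 → IsPrimitiveRoot (z.1 : F) r := fun z hz hz' =>
    IsPrimitiveRoot.coe_units_iff.2 (IsPrimitiveRoot.coe_submonoidClass_iff.2
      (orderOf_eq_prime hz hz' ▸ IsPrimitiveRoot.orderOf z))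
  obtain ⟨ζ, hζ⟩ := exists_prime_orderOf_dvd_card' r hrΓ
  replace hζ := h2 ζ (hζ ▸ pow_orderOf_eq_one ζ) fun h => hr.ne_one (by rw [← hζ, h, orderOf_one])
  have h3 : ∀ (μ : Γ) t, Valid t → (∀ x ∈ t, x.1 ∈ kumFac r (μ.1 : F)) →
      Fintype.card n = (t.map fun x => x.1.natDegree * x.2).sum → ∃ g, edM (ι g) = t :=
    fun μ t ht h => hex t ht fun x hx => by
      by_cases h4 : ∃ b, b ^ r = (μ.1 : F)
      · obtain ⟨b, hb⟩ := h4
        obtain ⟨c, hc, h5⟩ := (mem_kumFac_of_pow hr hζ hb).1 (h x hx)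
        obtain ⟨ν, rfl⟩ := hroot μ c hc
        exact ⟨1, one_pos, ν, by rwa [pow_one]⟩
      · have h5 := h x hx
        rw [kumFac_of_not hr (not_exists.1 h4), Multiset.mem_singleton] at h5
        exact ⟨r, hr.pos, μ, h5⟩
  have h4 : ∀ z : Γ, Nat.card {C : ConjClasses G // ∃ g, ConjClasses.mk g = C ∧
      (g : G ⧸ Subgroup.center G) ^ r = 1 ∧ IsConj (s z * g) g} = ∑ μ : Γ,
      Nat.card {M : Multiset F[X] // (∀ π ∈ M, π ∈ kumFac r (μ.1 : F)) ∧ (M.map natDegree).sum =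
        Fintype.card n ∧ (z ^ r = 1 ∧ M.map (·.scaleRoots z.1) = M)} := fun z => by
    have h5 : ∀ (μ : Γ) g, ι g ^ r = (μ.1 : F) • 1 ↔ s μ = g ^ r := fun μ g => by
      rw [← hs, ← map_pow, hι.eq_iff, eq_comm]
    have h6 : ∀ (μ : Γ) g, IsConj (s μ) g → s μ = g := fun μ g h => by
      obtain ⟨c, rfl⟩ := isConj_iff.1 h
      rw [Subgroup.mem_center_iff.1 ((hZ _).2 ⟨μ, rfl⟩) c, mul_inv_cancel_right]
    rw [← sum_congr rfl fun μ _ => card_classes_kum hr hζ μ.1.ne_zero ι hconj (h3 μ)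
      (fun g => z ^ r = 1 ∧ IsConj (s z * g) g) _ fun g M h => and_congr_right fun _ => ?_,
      ← Nat.card_sigma]
    · refine (Nat.card_congr (Equiv.ofBijective (fun x => ⟨x.2.1, by
        obtain ⟨g, hg, h7, -, h8⟩ := x.2.2
        refine ⟨g, hg, ?_, h8⟩
        rw [← QuotientGroup.mk_pow, QuotientGroup.eq_one_iff, hZ]
        exact ⟨_, (h5 _ _).1 h7⟩⟩) ⟨?_, ?_⟩)).symm
      · rintro ⟨μ, _, g, rfl, h7, h8⟩ ⟨μ', _, g', rfl, h7', h8'⟩ h
        have h9 : ConjClasses.mk g = ConjClasses.mk g' := congrArg Subtype.val h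
        have h10 := (ConjClasses.mk_eq_mk_iff_isConj.1 h9).pow r
        rw [← (h5 _ _).1 h7, ← (h5 _ _).1 h7'] at h10
        obtain rfl := h1 (h6 _ _ h10)
        exact congrArg _ (Subtype.ext h9)
      · rintro ⟨_, g, rfl, h7, h8⟩
        rw [← QuotientGroup.mk_pow, QuotientGroup.eq_one_iff, hZ] at h7
        obtain ⟨μ, h7⟩ := h7
        refine ⟨⟨μ, _, g, rfl, (h5 _ _).2 h7, ?_, h8⟩, rfl⟩
        have h9 := h8.pow r
        rw [(Subgroup.mem_center_iff.1 ((hZ _).2 ⟨z, rfl⟩) g).symm |> Commute.mul_pow, ← h7,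
          ← map_pow, ← map_mul] at h9
        simpa using h1 (h6 _ _ h9)
    · refine Iff.trans ⟨ι.map_isConj, hconj _ _⟩ ?_
      rw [map_mul, hs, smul_one_mul, isConj_iff_edM, edM_smul _ z.1.ne_zero, h, Multiset.map_map,
        ← (Multiset.map_injective (f := fun π : F[X] => (π, 1))
          fun _ _ h => congrArg Prod.fst h).eq_iff, Multiset.map_map]
      rfl
  have h5 := card_center_mul_card_classes' (G := G) (· ^ r = 1) fun x y h hx => by
    have := h.pow r
    rwa [hx, isConj_one_right] at this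
  rw [← card_classes_order_prime_add_one hr, ← Nat.card_congr e, ← e.sum_comp] at h5
  replace h5 := h5.trans (sum_congr rfl fun z _ => h4 z)
  have h6 : Nat.card (powMonoidHom r : Γ →* Γ).ker = r := by
    rw [IsCyclic.card_powMonoidHom_ker, Nat.gcd_eq_right hrΓ]
  have h7 := Subgroup.card_mul_index (powMonoidHom r : Γ →* Γ).ker
  rw [h6, Subgroup.index_ker] at h7
  have h8 := card_filter_add_card_filter_not (s := univ) (· ∈ (powMonoidHom r : Γ →* Γ).range)
  rw [← add_sum_erase _ _ (mem_univ 1), sum_congr rfl (g := fun μ =>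
    if μ ∈ (powMonoidHom r : Γ →* Γ).range then r.multichoose (Fintype.card n) else
      if r ∣ Fintype.card n then 1 else 0) fun μ _ => ?_, sum_congr (s₁ := univ.erase 1) rfl (g := fun z =>
    if z ∈ (powMonoidHom r : Γ →* Γ).ker then Nat.card Γ * if r ∣ Fintype.card n then 1 else 0
      else 0) fun z hz => ?_, sum_ite, sum_const, sum_const, ← sum_filter, sum_const,
    filter_erase, card_erase_of_mem (by simp), ← Fintype.card_subtype, ← Nat.card_eq_fintype_card,
    ← Fintype.card_subtype (· ∈ MonoidHom.ker _),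
    ← Nat.card_eq_fintype_card (α := {x // x ∈ MonoidHom.ker _}), h6] at h5
  · rw [← Fintype.card_subtype, card_univ, ← Nat.card_eq_fintype_card,
      ← Nat.card_eq_fintype_card] at h8
    have h9 : 0 < Nat.card (powMonoidHom r : Γ →* Γ).range := Nat.card_pos
    obtain ⟨r, rfl⟩ := Nat.exists_eq_succ_of_ne_zero hr.ne_zero
    simp only [smul_eq_mul, Nat.succ_eq_add_one, Nat.add_sub_cancel] at *
    rw [← h7] at h5 h8
    refine Nat.eq_of_mul_eq_mul_left h9 ?_
    generalize (if r + 1 ∣ Fintype.card n then 1 else 0) = δ at h5 ⊢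
    zify at h5 h8 ⊢
    linear_combination h5 + δ * h8
  · by_cases h9 : z ∈ (powMonoidHom r : Γ →* Γ).ker
    · rw [if_pos h9]
      have h10 := h2 z h9 (mem_erase.1 hz).1
      simp only [show z ^ r = 1 from h9, true_and]
      rw [sum_congr rfl fun μ _ => card_kum_inv hr h10 μ.1.ne_zero _, sum_const, card_univ,
        Nat.card_eq_fintype_card, smul_eq_mul]
    · simp [h9, show ¬ z ^ r = 1 from h9]
  · simp only [one_pow, OneMemClass.coe_one, Units.val_one, scaleRoots_one, Multiset.map_id',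
      and_self]
    by_cases h9 : μ ∈ (powMonoidHom r : Γ →* Γ).range
    · rw [if_pos h9]
      obtain ⟨ν, rfl⟩ := h9
      exact card_kum_split hr hζ (Units.ne_zero _) (b := ν.1) (by simp) _
    · rw [if_neg h9]
      refine card_kum_not hr (fun b hb => h9 ?_) _
      obtain ⟨ν, rfl⟩ := hroot μ b hb
      exact ⟨ν, Subtype.ext (Units.ext (by simpa using hb))⟩

theorem proj_count_eq {k r n : ℕ} (hr : r.Prime) (hn : 2 ≤ n)
    (h : k * r + r + (if r ∣ n then 1 else 0) = r.multichoose n + r * r * if r ∣ n then 1 else 0) :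
    k = ((n + r - 1).choose (r - 1) - r - (if r ∣ n then 1 else 0)) / r +
      r * if r ∣ n then 1 else 0 := by
  obtain ⟨r, rfl⟩ := Nat.exists_eq_succ_of_ne_zero hr.ne_zero
  have h1 := hr.two_le
  rw [Nat.multichoose_eq, show r.succ + n - 1 = n + r by omega, Nat.choose_symm_add] at h
  rw [show n + r.succ - 1 = n + r by omega, Nat.succ_sub_one]
  have h2 : r + 2 ≤ (n + r).choose r := by
    refine le_trans ?_ (Nat.choose_le_choose r (show 2 + r ≤ n + r by omega))
    rw [← Nat.choose_symm_add, Nat.choose_two_right, Nat.le_div_iff_mul_le two_pos,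
      show 2 + r - 1 = r + 1 by omega]
    nlinarith
  generalize (n + r).choose r = c at *
  obtain ⟨c, rfl⟩ := Nat.exists_eq_add_of_le h2
  split_ifs at *
  · obtain ⟨m, rfl⟩ := Nat.exists_eq_add_of_le
      (Nat.le_of_mul_le_mul_right (show r.succ * r.succ ≤ k * r.succ by omega) r.succ_pos)
    rw [add_mul] at h
    rw [show r + 2 + c - r.succ - 1 = m * r.succ by omega, Nat.mul_div_cancel _ r.succ_pos, mul_one,
      add_comm]
  · rw [show r + 2 + c - r.succ - 0 = k * r.succ by omega, Nat.mul_div_cancel _ r.succ_pos, mul_zero,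
      add_zero]

end CfsgLib.MatConj
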