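import Cfsg.Agent.Lib.MatConj.WallCong

/-!
Generating functions for self-reciprocal polynomials.
-/

set_option autoImplicit false

namespace CfsgLib.MatConj

open Polynomial Finset

variable {F : Type*} [Field F]

/-- Self-reciprocal polynomials. -/
def SR (f : F[X]) : Prop := f.coeff 0 ≠ 0 ∧ tilde (RingHom.id F) f = f

/-- Palindromic polynomials of even degree. -/
def Pal (f : F[X]) : Prop := Even f.natDegree ∧ f.coeff 0 = 1 ∧ tilde (RingHom.id F) f = f

theorem Pal.sr {f : F[X]} (h : Pal f) : SR f := ⟨h.2.1 ▸ one_ne_zero, h.2.2⟩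

theorem Pal.ne_zero {f : F[X]} (h : Pal f) : f ≠ 0 := fun h0 => by simpa [h0] using h.2.1

theorem pal_one : Pal (1 : F[X]) := ⟨by simp, by simp, tilde_one _⟩

theorem Pal.mul {f g : F[X]} (hf : Pal f) (hg : Pal g) : Pal (f * g) :=
  ⟨natDegree_mul hf.ne_zero hg.ne_zero ▸ hf.1.add hg.1, by simp [hf.2.1, hg.2.1],
    by rw [tilde_mul, hf.2.2, hg.2.2]⟩

theorem SR.mul {f g : F[X]} (hf : SR f) (hg : SR g) : SR (f * g) :=
  ⟨by simp [hf.1, hg.1], by rw [tilde_mul, hf.2, hg.2]⟩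

theorem sr_pm (b : Bool) : SR (pm F b) := ⟨by cases b <;> simp [pm], (pm_facts' b).2.2.2.1⟩

theorem SR.of_mul {f g : F[X]} (hf : SR f) (h : SR (f * g)) : SR g :=
  ⟨right_ne_zero_of_mul (mul_coeff_zero f g ▸ h.1), mul_left_cancel₀
    (show f ≠ 0 from fun h0 => by simpa [h0] using hf.1) (by rw [← h.2, tilde_mul, hf.2])⟩

theorem pal_pm_pow (b : Bool) {k : ℕ} (hk : Even k) : Pal (pm F b ^ k) :=
  ⟨by simp [(pm_facts' b).2.2.2.2, hk], by cases b <;> simp [pm, coeff_zero_pow, hk.neg_one_pow],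
    by rw [tilde_pow, (sr_pm b).2]⟩

theorem SR.eval_eq {f : F[X]} (h : SR f) {c : F} (hc : c * c = 1) :
    f.coeff 0 * f.eval c = c ^ f.natDegree * f.eval c := by
  have h1 := aeval_reflect (F := F) hc (le_refl f.natDegree)
  have h2 := congrArg (eval c) h.2
  rw [tilde, Polynomial.map_id, eval_mul, eval_C, reverse, ← coe_aeval_eq_eval, h1] at h2
  rw [← coe_aeval_eq_eval, ← mul_inv_cancel_left₀ h.1 (c ^ _ * _)]
  exact congrArg _ h2.symm

theorem pm_dvd_iff {b : Bool} {f : F[X]} : pm F b ∣ f ↔ f.eval (if b then 1 else -1) = 0 := by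
  rw [← IsRoot.def, ← dvd_iff_isRoot]
  cases b <;> simp [pm]

theorem SR.coeff_zero_eq_one {f : F[X]} (h : SR f) (h1 : ¬ pm F true ∣ f) : f.coeff 0 = 1 :=
  mul_right_cancel₀ (pm_dvd_iff.not.1 h1) (by simpa using h.eval_eq (mul_one 1))

theorem SR.even (h2 : (2 : F) ≠ 0) {f : F[X]} (h : SR f) (h0 : f.coeff 0 = 1) (h1 : ¬ pm F false ∣ f) :
    Even f.natDegree := by
  by_contra h3
  have h4 := h.eval_eq (c := -1) (by simp)
  rw [(Nat.not_even_iff_odd.1 h3).neg_one_pow, h0] at h4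
  exact mul_ne_zero h2 (pm_dvd_iff.not.1 h1) (by simp only [Bool.false_eq_true, if_false]; linear_combination h4)

theorem SR.pal (h2 : (2 : F) ≠ 0) {f : F[X]} (h : SR f) (h1 : ∀ b, ¬ pm F b ∣ f) : Pal f :=
  ⟨h.even h2 (h.coeff_zero_eq_one (h1 _)) (h1 _), h.coeff_zero_eq_one (h1 _), h.2⟩

theorem SR.coeff_zero {f : F[X]} (h : SR f) (hm : f.Monic) : f.coeff 0 = 1 ∨ f.coeff 0 = -1 := by
  have := coeff_zero_tilde (RingHom.id F) hm
  rw [h.2, RingHom.id_apply] at this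
  exact mul_self_eq_one_iff.1 (by nth_rw 1 [this]; exact inv_mul_cancel₀ h.1)

theorem not_pm_dvd_pm (h2 : (2 : F) ≠ 0) {b b' : Bool} (h : b ≠ b') : ¬ pm F b ∣ pm F b' := fun h' =>
  h (pm_injective h2 (eq_of_monic_of_associated (pm_facts' b).2.1 (pm_facts' b').2.1
    ((pm_facts' b).1.associated_of_dvd (pm_facts' b').1 h')))

/-- The generating function of the monic polynomials with a property. -/
noncomputable def ser (P : F[X] → Prop) : PowerSeries ℝ :=
  PowerSeries.mk fun m => Nat.card {f : F[X] // f.Monic ∧ f.natDegree = m ∧ P f}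

theorem cPos_ser (P : F[X] → Prop) : CPos (ser P) := fun m => by simp [ser]

variable [Finite F]

theorem ser_le_add {P Q R : F[X] → Prop} (h : ∀ f, f.Monic → P f → Q f ∨ R f) :
    CLe (ser P) (ser Q + ser R) := fun m => by
  have := finite_monic Q m
  have := finite_monic R m
  simp only [ser, map_add, PowerSeries.coeff_mk]
  rw [← Nat.cast_add, Nat.cast_le, ← Nat.card_sum]
  classical
  refine Nat.card_le_card_of_injective (fun f => if h' : Q f.1 then .inl ⟨f.1, f.2.1, f.2.2.1, h'⟩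
    else .inr ⟨f.1, f.2.1, f.2.2.1, (h _ f.2.1 f.2.2.2).resolve_left h'⟩) fun f g hfg => ?_
  dsimp only at hfg
  split_ifs at hfg <;> exact Subtype.ext (by simpa using hfg)

theorem ser_mono {P Q : F[X] → Prop} (h : ∀ f, f.Monic → P f → Q f) : CLe (ser P) (ser Q) := fun m => by
  have := finite_monic Q m
  simp only [ser, PowerSeries.coeff_mk, Nat.cast_le]
  exact Nat.card_le_card_of_injective (fun f => ⟨f.1, f.2.1, f.2.2.1, h _ f.2.1 f.2.2.2⟩)
    fun _ _ h => Subtype.ext (Subtype.mk.inj h)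

theorem ser_le_X_pow_mul {P Q : F[X] → Prop} {p : F[X]} (hp : p.Monic)
    (h : ∀ f, f.Monic → P f → ∃ g, Q g ∧ f = p * g) :
    CLe (ser P) (PowerSeries.X ^ p.natDegree * ser Q) := fun m => by
  have := finite_monic Q (m - p.natDegree)
  choose g hg hg' using h
  have h1 : ∀ f : {f : F[X] // f.Monic ∧ f.natDegree = m ∧ P f},
      (g f.1 f.2.1 f.2.2.2).Monic ∧ p.natDegree + (g f.1 f.2.1 f.2.2.2).natDegree = m := fun f => by
    have h1 := hp.of_mul_monic_left (hg' f.1 f.2.1 f.2.2.2 ▸ f.2.1)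
    exact ⟨h1, by rw [← hp.natDegree_mul h1, ← hg', f.2.2.1]⟩
  simp only [ser, PowerSeries.coeff_X_pow_mul', PowerSeries.coeff_mk]
  split_ifs with h2
  · exact Nat.cast_le.2 (Nat.card_le_card_of_injective (fun f => ⟨g f.1 f.2.1 f.2.2.2, (h1 f).1,
      Nat.eq_sub_of_add_eq' (h1 f).2, hg _ _ _⟩) fun f f' h => Subtype.ext (by
        rw [hg' f.1 f.2.1 f.2.2.2, hg' f'.1 f'.2.1 f'.2.2.2, Subtype.mk.inj h]))
  · have : IsEmpty {f : F[X] // f.Monic ∧ f.natDegree = m ∧ P f} :=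
      ⟨fun f => h2 (Nat.le.intro (h1 f).2)⟩
    simp

theorem ser_le_X_mul {P Q : F[X] → Prop} (b : Bool)
    (h : ∀ f, f.Monic → P f → ∃ g, Q g ∧ f = pm F b * g) : CLe (ser P) (PowerSeries.X * ser Q) := by
  simpa [(pm_facts' b).2.2.2.2] using ser_le_X_pow_mul (pm_facts' b).2.1 h

theorem ser_le_one_add_X_mul {P Q : F[X] → Prop} (b : Bool)
    (h : ∀ f, f.Monic → P f → Q f ∨ ∃ g, Q g ∧ f = pm F b * g) :
    CLe (ser P) ((1 + PowerSeries.X) * ser Q) := by
  rw [add_mul, one_mul]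
  exact (ser_le_add h).trans ((CLe.refl _).add (ser_le_X_mul b fun _ _ h => h))

theorem gfS_ite_le (P Q : F[X] → Prop) [DecidablePred Q] (N : ℕ) :
    CLe (gfS (monS P N) fun f => if Q f then 1 else 0) (ser fun f => P f ∧ Q f) := fun m => by
  refine le_trans (le_of_eq ?_) ((coeff_gfS_monS_le (fun f => P f ∧ Q f) N m).trans_eq
    (by simp [ser]))
  rw [coeff_gfS, coeff_gfS, ← sum_filter, filter_comm]
  congr 2
  ext f
  simp [mem_monS, and_assoc]

theorem gfS_le_ser (P : F[X] → Prop) (N : ℕ) : CLe (gfS (monS P N) 1) (ser P) := fun m =>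
  (coeff_gfS_monS_le P N m).trans_eq (by simp [ser])

theorem coeff_ser_pal (m : ℕ) :
    PowerSeries.coeff m (ser (Pal (F := F))) = PowerSeries.coeff m (geo2 (Nat.card F)) := by
  rw [ser, PowerSeries.coeff_mk, PowerSeries.coeff_expand]
  split_ifs with h
  · obtain ⟨k, rfl⟩ := h
    rw [coeff_geo, Nat.mul_div_cancel_left _ two_pos, ← Nat.cast_pow, ← card_palindromic]
    exact congrArg _ (Nat.card_congr (Equiv.subtypeEquivRight fun f => and_congr_right fun _ =>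
      and_congr_right fun h => and_iff_right (h ▸ even_two_mul k)))
  · have : IsEmpty {f : F[X] // f.Monic ∧ f.natDegree = m ∧ Pal f} :=
      ⟨fun f => h (f.2.2.1 ▸ f.2.2.2.1.two_dvd)⟩
    simp

theorem ser_pal : ser (Pal (F := F)) = geo2 (Nat.card F) := PowerSeries.ext coeff_ser_pal

theorem cPos_one_add_X : CPos (1 + PowerSeries.X) := cPos_one.add cPos_X

theorem ser_sr_le (h2 : (2 : F) ≠ 0) :
    CLe (ser (SR (F := F))) ((1 + PowerSeries.X) ^ 2 * geo2 (Nat.card F)) := by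
  rw [sq, mul_assoc, ← ser_pal]
  refine (ser_le_one_add_X_mul (Q := fun f => SR f ∧ f.coeff 0 = 1) true fun f hm hf => ?_).trans
    (CLe.mul cPos_one_add_X (cPos_ser _) (CLe.refl _)
      (ser_le_one_add_X_mul false fun f hm hf => ?_))
  · by_cases h : f.coeff 0 = 1
    · exact Or.inl ⟨hf, h⟩
    obtain ⟨g, rfl⟩ : pm F true ∣ f := not_not.1 fun h' => h (hf.coeff_zero_eq_one h')
    exact Or.inr ⟨g, ⟨(sr_pm _).of_mul hf, by simpa [pm] using (hf.coeff_zero hm).resolve_left h⟩, rfl⟩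
  · by_cases h : Even f.natDegree
    · exact Or.inl ⟨h, hf.2, hf.1.2⟩
    obtain ⟨g, rfl⟩ : pm F false ∣ f := not_not.1 fun h' => h (hf.1.even h2 hf.2 h')
    refine Or.inr ⟨g, ⟨?_, by simpa [pm] using hf.2, ((sr_pm _).of_mul hf.1).2⟩, rfl⟩
    rw [natDegree_mul (pm_facts' _).2.1.ne_zero (right_ne_zero_of_mul hm.ne_zero),
      (pm_facts' _).2.2.2.2, add_comm, Nat.even_add_one, not_not] at h
    exact h

open scoped _root_.Classical in
theorem gfS_sr_le (h2 : (2 : F) ≠ 0) (N : ℕ) :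
    CLe (gfS (monS (SR (F := F)) N) fun f => 2 ^ #{b | pm F b ∣ f})
      ((1 + PowerSeries.X) ^ 4 * geo2 (Nat.card F)) := by
  have h1 : (gfS (monS (SR (F := F)) N) fun f => 2 ^ #{b | pm F b ∣ f}) = gfS (monS (SR (F := F)) N) 1 +
      (gfS (monS SR N) fun f => if pm F true ∣ f then 1 else 0) +
      (gfS (monS SR N) fun f => if pm F false ∣ f then 1 else 0) +
      (gfS (monS SR N) fun f => if pm F true ∣ f ∧ pm F false ∣ f then 1 else 0) := by
    simp only [gfS, ← sum_add_distrib, ← add_mul, ← map_add]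
    refine sum_congr rfl fun f _ => ?_
    rw [card_filter, Fintype.sum_bool]
    by_cases h : pm F true ∣ f <;> by_cases h' : pm F false ∣ f <;> norm_num [h, h']
  have h3 : ∀ b, CLe (ser fun f => SR f ∧ pm F b ∣ f) (PowerSeries.X * ser (SR (F := F))) := fun b =>
    ser_le_X_mul b fun f _ ⟨h, g, hg⟩ => ⟨g, (sr_pm b).of_mul (hg ▸ h), hg⟩
  have h4 : CLe (ser fun f => SR f ∧ pm F true ∣ f ∧ pm F false ∣ f)
      (PowerSeries.X * (PowerSeries.X * ser (SR (F := F)))) :=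
    (ser_le_X_mul (Q := fun f => SR f ∧ pm F false ∣ f) true fun f _ ⟨h, ⟨g, hg⟩, h'⟩ =>
      ⟨g, ⟨(sr_pm _).of_mul (hg ▸ h), ((pm_facts' _).1.prime.dvd_or_dvd (hg ▸ h')).resolve_left
        (not_pm_dvd_pm h2 (by simp))⟩, hg⟩).trans (CLe.mul cPos_X (cPos_ser _) (CLe.refl _) (h3 _))
  rw [h1]
  refine (((((gfS_le_ser _ _).add ((gfS_ite_le _ _ _).trans (h3 _))).add
    ((gfS_ite_le _ _ _).trans (h3 _))).add ((gfS_ite_le _ _ _).trans h4)).trans ?_)
  convert CLe.mul (cPos_one_add_X.pow 2) (cPos_ser _) (CLe.refl _) (ser_sr_le h2) using 1 <;> ring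

open scoped _root_.Classical in
theorem gfS_sr_zero_le (h2 : (2 : F) ≠ 0) (N : ℕ) :
    CLe (gfS (monS (SR (F := F)) N) fun f => if ∀ b, ¬ pm F b ∣ f then 1 else 0)
      (geo2 (Nat.card F)) :=
  (gfS_ite_le _ _ _).trans (ser_pal (F := F) ▸ ser_mono fun _ _ h => h.1.pal h2 h.2)

theorem gfS_pal_le (N : ℕ) : CLe (gfS (monS (Pal (F := F)) N) 1) (geo2 (Nat.card F)) :=
  ser_pal (F := F) ▸ gfS_le_ser _ _

theorem ser_add_le {P Q R : F[X] → Prop} (hQ : ∀ f, f.Monic → Q f → P f)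
    (hR : ∀ f, f.Monic → R f → P f) (h : ∀ f, Q f → ¬ R f) : CLe (ser Q + ser R) (ser P) := fun m => by
  have := finite_monic P m
  have := finite_monic Q m
  have := finite_monic R m
  simp only [ser, map_add, PowerSeries.coeff_mk]
  rw [← Nat.cast_add, Nat.cast_le, ← Nat.card_sum]
  refine Nat.card_le_card_of_injective (Sum.elim (fun f => ⟨f.1, f.2.1, f.2.2.1, hQ _ f.2.1 f.2.2.2⟩)
    fun f => ⟨f.1, f.2.1, f.2.2.1, hR _ f.2.1 f.2.2.2⟩) ?_
  rintro (f | f) (g | g) hfg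
  · exact congrArg _ (Subtype.ext (Subtype.mk.inj hfg))
  · exact absurd ((Subtype.mk.inj hfg).symm ▸ g.2.2.2) (h _ f.2.2.2)
  · exact absurd ((Subtype.mk.inj hfg) ▸ f.2.2.2) (h _ g.2.2.2)
  · exact congrArg _ (Subtype.ext (Subtype.mk.inj hfg))

theorem X_pow_mul_ser_le {P Q : F[X] → Prop} {p : F[X]} (hp : p.Monic)
    (h : ∀ g, g.Monic → Q g → P (p * g)) :
    CLe (PowerSeries.X ^ p.natDegree * ser Q) (ser P) := fun m => by
  have := finite_monic P m
  simp only [ser, PowerSeries.coeff_X_pow_mul', PowerSeries.coeff_mk]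
  split_ifs with h2
  · exact Nat.cast_le.2 (Nat.card_le_card_of_injective (fun f => ⟨p * f.1, hp.mul f.2.1, by
      rw [hp.natDegree_mul f.2.1, f.2.2.1, Nat.add_sub_cancel' h2], h _ f.2.1 f.2.2.2⟩)
      fun f f' h => Subtype.ext (mul_left_cancel₀ hp.ne_zero (Subtype.mk.inj h)))
  · positivity

theorem ser_pal_not_dvd_le (b : Bool) : CLe (ser fun f => Pal f ∧ ¬ pm F b ∣ f)
    (PowerSeries.expand 2 two_ne_zero (hGL (Nat.card F))) := fun m => by
  have h1 := ((CLe.refl (ser fun f => Pal f ∧ ¬ pm F b ∣ f)).add (X_pow_mul_ser_le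
    (P := fun f => Pal f ∧ pm F b ∣ f) (Q := Pal) ((pm_facts' b).2.1.pow 2) fun g _ h =>
      ⟨(pal_pm_pow b even_two).mul h, (dvd_pow_self _ two_ne_zero).mul_right _⟩)).trans
    (ser_add_le (P := Pal) (fun _ _ h => h.1) (fun _ _ h => h.1) fun _ h h' => h.2 h'.2) m
  have h2 : hGL (Nat.card F) + PowerSeries.X * geo (Nat.card F) = geo (Nat.card F) := by
    rw [hGL_eq, map_sub, map_one]
    linear_combination -geo_eq (Nat.card F)
  have h3 := congrArg (fun f => PowerSeries.coeff m (PowerSeries.expand 2 two_ne_zero f)) h2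
  simp only [map_add, map_mul, PowerSeries.expand_X, ser_pal, (pm_facts' b).2.1.natDegree_pow,
    (pm_facts' b).2.2.2.2, mul_one] at h1 h3
  linarith

/-- The data of the classes which split in the commutator subgroup. -/
def Spl (f : F[X]) : Prop :=
  ∃ (g : F[X]) (a : Bool → ℕ), Pal g ∧ ¬ pm F true ∣ g ∧ (∀ b, a b ≤ 1) ∧ f = g * ∏ b, pm F b ^ a b

theorem gfS_spl_le (N : ℕ) : CLe (gfS (monS (Spl (F := F)) N) 1)
    ((1 + PowerSeries.X) ^ 2 * PowerSeries.expand 2 two_ne_zero (hGL (Nat.card F))) := by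
  rw [sq, mul_assoc]
  refine (gfS_le_ser _ _).trans ((ser_le_one_add_X_mul (Q := fun f => (Pal f ∧ ¬ pm F true ∣ f) ∨
    ∃ g, (Pal g ∧ ¬ pm F true ∣ g) ∧ f = pm F false * g) true ?_).trans
    (CLe.mul cPos_one_add_X (cPos_ser _) (CLe.refl _)
      ((ser_le_one_add_X_mul false fun _ _ h => h).trans
        (CLe.mul cPos_one_add_X (cPos_ser _) (CLe.refl _) (ser_pal_not_dvd_le true)))))
  rintro _ - ⟨g, a, h1, h2, h3, rfl⟩
  rw [Fintype.prod_bool]
  rcases Nat.le_one_iff_eq_zero_or_eq_one.1 (h3 true) with h4 | h4 <;>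
    rcases Nat.le_one_iff_eq_zero_or_eq_one.1 (h3 false) with h5 | h5 <;> rw [h4, h5]
  · exact Or.inl (Or.inl (by simpa using ⟨h1, h2⟩))
  · exact Or.inl (Or.inr ⟨g, ⟨h1, h2⟩, by ring⟩)
  · exact Or.inr ⟨g, Or.inl ⟨h1, h2⟩, by ring⟩
  · exact Or.inr ⟨_, Or.inr ⟨g, ⟨h1, h2⟩, rfl⟩, by ring⟩

end CfsgLib.MatConj
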