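import Cfsg.Agent.Lib.MatConj.JordanCent
import Cfsg.Agent.Lib.MatConj.PolyData

/-!
Wall's classification of the invariant symmetric and alternating forms in odd characteristic.
-/

set_option autoImplicit false

namespace CfsgLib.MatConj

open Matrix Finset

variable {F : Type*} [Field F] {n m : Type*} [Fintype n] [DecidableEq n] [Fintype m] [DecidableEq m]

/-- Congruence of forms by an element commuting with `A`. -/
def Cong (A G G' : Matrix n n F) : Prop := ∃ x, Commute x A ∧ xᵀ * G * x = G'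

omit [DecidableEq n] in
theorem inv_cong {A G x : Matrix n n F} (h : Aᵀ * G * A = G) (hx : Commute x A) :
    Aᵀ * (xᵀ * G * x) * A = xᵀ * G * x := by
  rw [show Aᵀ * (xᵀ * G * x) * A = (x * A)ᵀ * G * (x * A) by simp [Matrix.mul_assoc], hx.eq]
  conv_rhs => rw [← h]
  simp [Matrix.mul_assoc]

omit [DecidableEq n] [Fintype m] [DecidableEq m] in
theorem transpose_cong {G : Matrix n n F} {c : F} (h : Gᵀ = c • G) (x : Matrix n m F) :
    (xᵀ * G * x)ᵀ = c • (xᵀ * G * x) := by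
  simp [h, Matrix.mul_assoc]

omit [DecidableEq n] [DecidableEq m] in
theorem cong_cong {l : Type*} (G : Matrix n n F) (P : Matrix n m F) (x : Matrix m l F) :
    xᵀ * (Pᵀ * G * P) * x = (P * x)ᵀ * G * (P * x) := by
  simp [Matrix.mul_assoc]

theorem det_cong (G x : Matrix n n F) : (xᵀ * G * x).det = x.det * x.det * G.det := by
  rw [det_mul, det_mul, det_transpose]; ring

theorem det_ne_zero_of_inv {A G : Matrix n n F} (h : Aᵀ * G * A = G) (hG : G.det ≠ 0) :
    A.det ≠ 0 := fun h0 => hG (by rw [← h, det_mul, h0, mul_zero])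

omit [Fintype m] [DecidableEq m] in
theorem mul_inv_mul_cancel {G : Matrix n n F} (hG : G.det ≠ 0) (H : Matrix n m F) :
    G * (G⁻¹ * H) = H := mul_nonsing_inv_cancel_left _ _ hG.isUnit

theorem commute_inv_mul {A G G' : Matrix n n F} (h : Aᵀ * G * A = G) (h' : Aᵀ * G' * A = G')
    (hG : G.det ≠ 0) : Commute (G⁻¹ * G') A := by
  have h1 : IsUnit (Aᵀ * G) := by
    rw [isUnit_iff_isUnit_det, det_mul, det_transpose]
    exact (mul_ne_zero (det_ne_zero_of_inv h hG) hG).isUnit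
  refine h1.mul_left_cancel ?_
  rw [← mul_assoc _ A, h, ← mul_assoc, mul_assoc _ G, mul_inv_mul_cancel hG, h']

theorem nondeg_toBilin' (G : Matrix n n F) (hG : G.det ≠ 0) : (toBilin' G).Nondegenerate :=
  LinearMap.BilinForm.nondegenerate_toBilin'_of_det_ne_zero' G hG

theorem exists_gram_star {G : Matrix n n F} (hG : G.det ≠ 0) {c : F} (h : Gᵀ = c • G) :
    ∃ _ : StarRing (Matrix n n F), ∀ X : Matrix n n F, Xᵀ * G = G * star X := by
  obtain ⟨inst, hs⟩ := exists_adjoint_star (toBilin' G) (nondeg_toBilin' G hG)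
    (ε := c) fun x y => by
      rw [toBilin'_apply', toBilin'_apply', ← smul_eq_mul, ← dotProduct_smul, ← smul_mulVec, ← h,
        mulVec_transpose, dotProduct_comm y, dotProduct_mulVec]
  refine ⟨inst, fun X => toBilin'.injective (LinearMap.ext₂ fun u v => ?_)⟩
  have := hs X u v
  simp only [toBilin'_apply'] at this ⊢
  rw [← mulVec_mulVec, ← mulVec_mulVec, ← this, dotProduct_mulVec u, vecMul_transpose]

theorem exists_cong_of_sign [Finite F] (h2 : (2 : F) ≠ 0) {H H' : Matrix n n F} {r : ℕ}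
    (hH : Hᵀ = (-1 : F) ^ r • H) (hH' : H'ᵀ = (-1 : F) ^ r • H') (h : H.det ≠ 0) (h' : H'.det ≠ 0)
    (hs : Even r → IsSquare (H.det * H'.det)) : ∃ g : Matrix n n F, gᵀ * H * g = H' := by
  suffices ∃ e : (n → F) ≃ₗ[F] (n → F), ∀ x y, toBilin' H (e x) (e y) = toBilin' H' x y by
    obtain ⟨e, he⟩ := this
    refine ⟨LinearMap.toMatrix' e, toBilin'.injective (LinearMap.ext₂ fun u v => ?_)⟩
    rw [← toBilin'_comp, ← he]
    simp
  rcases r.even_or_odd with hr | hr
  · simp only [hr.neg_one_pow, one_smul] at hH hH'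
    have h1 : ∀ {M : Matrix n n F}, Mᵀ = M → M.det ≠ 0 →
        QuadraticMap.polarBilin (toBilin' M).toQuadraticMap = toBilin' ((2 : F) • M) ∧
        (QuadraticMap.polarBilin (toBilin' M).toQuadraticMap).Nondegenerate ∧
        (Orth.gram (toBilin' M).toQuadraticMap (Pi.basisFun F n)).det =
          2 ^ Fintype.card n * M.det := fun {M} hM h0 => by
      have h3 := polarBilin_toBilin' M
      rw [hM, ← two_smul F] at h3
      refine ⟨h3, h3 ▸ nondeg_toBilin' _ (by simp [h0, h2]), ?_⟩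
      rw [Orth.gram_eq_toMatrix, h3, LinearMap.BilinForm.toMatrix_basisFun, LinearMap.BilinForm.toMatrix'_toBilin',
        det_smul]
    obtain ⟨e, he⟩ := Orth.exists_equiv_of_isSquare_disc h2 (h1 hH' h').2.1 (h1 hH h).2.1
      (Pi.basisFun F n) (Pi.basisFun F n) rfl (by
        rw [(h1 hH h).2.2, (h1 hH' h').2.2, mul_mul_mul_comm, mul_comm H'.det]
        exact (IsSquare.mul_self _).mul (hs hr))
    refine ⟨e, fun x y => mul_left_cancel₀ h2 ?_⟩
    have h4 := Orth.polar_map_of_map_Q e.toLinearMap he x y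
    rw [← QuadraticMap.polarBilin_apply_apply, ← QuadraticMap.polarBilin_apply_apply, (h1 hH h).1,
      (h1 hH' h').1] at h4
    simpa using h4
  · simp only [hr.neg_one_pow, neg_smul, one_smul] at hH hH'
    have h1 : ∀ {M : Matrix n n F}, Mᵀ = -M → (toBilin' M).IsAlt := fun {M} hM =>
      isAlt_toBilin' hM fun i => mul_left_cancel₀ h2 (by
        have := congrFun (congrFun hM i) i
        simp only [transpose_apply, Matrix.neg_apply] at this
        linear_combination this)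
    exact alt_isometric (h1 hH') (h1 hH) (nondeg_toBilin' _ h')
      (nondeg_toBilin' _ h)

theorem exists_sq_pow_eq [Finite F] (h2 : (2 : F) ≠ 0) {z : Matrix n n F} (hz : IsNilpotent (z - 1)) :
    ∃ k, z ^ k * z ^ k = z := by
  obtain ⟨p, hp⟩ := CharP.exists F
  have : Fact p.Prime := ⟨CharP.char_is_prime F p⟩
  obtain ⟨j, hj⟩ := (isNilpotent_sub_one_iff_pow (F := F) p z).1 hz
  obtain ⟨k, hk⟩ : Odd (p ^ j) := (this.out.odd_of_ne_two fun h => h2 (by
    subst h; exact CharP.cast_eq_zero F 2)).pow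
  exact ⟨k + 1, by rw [← pow_add, show k + 1 + (k + 1) = p ^ j + 1 by omega, pow_succ, hj, one_mul]⟩

theorem transpose_pow_mul {G z : Matrix n n F} (h : zᵀ * G = G * z) (k : ℕ) :
    (z ^ k)ᵀ * G = G * z ^ k := by
  rw [transpose_pow]
  exact (SemiconjBy.pow_right (a := G) h.symm k).eq.symm

theorem transpose_inv_mul {G G' : Matrix n n F} {c : F} (hc : c ≠ 0) (hG : G.det ≠ 0)
    (h : Gᵀ = c • G) (h' : G'ᵀ = c • G') : (G⁻¹ * G')ᵀ * G = G * (G⁻¹ * G') := by
  have h1 := congrArg transpose (mul_inv_mul_cancel hG G')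
  rw [transpose_mul, h, h', Matrix.mul_smul] at h1
  rw [mul_inv_mul_cancel hG, smul_right_injective _ hc h1]

omit [DecidableEq n] in
theorem Cong.trans {A G G' G'' : Matrix n n F} (h : Cong A G G') (h' : Cong A G' G'') :
    Cong A G G'' := by
  obtain ⟨x, hx, rfl⟩ := h
  obtain ⟨y, hy, rfl⟩ := h'
  exact ⟨x * y, hx.mul_left hy, by simp [Matrix.mul_assoc]⟩

omit [DecidableEq n] in
theorem Cong.neg {A G G' : Matrix n n F} (h : Cong A G G') : Cong (-A) G G' :=
  h.imp fun _ hx => ⟨hx.1.neg_right, hx.2⟩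

theorem cong_of_isUnit [Finite F] {A G G' : Matrix n n F} (h1 : IsUnit (A - 1)) (h2 : IsUnit (A + 1))
    (hA : Aᵀ * G * A = G) (hA' : Aᵀ * G' * A = G') {c : F} (hc : c ≠ 0) (h : Gᵀ = c • G)
    (h' : G'ᵀ = c • G') (hG : G.det ≠ 0) (hG' : G'.det ≠ 0) : Cong A G G' := by
  obtain ⟨inst, hs⟩ := exists_gram_star hG h
  have hu : IsUnit G := (isUnit_iff_isUnit_det _).2 hG.isUnit
  have h3 : A * star A = 1 := mul_eq_one_comm.1 (hu.mul_left_cancel (by
    rw [← mul_assoc, ← hs, hA, mul_one]))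
  obtain ⟨ω, k, -, h4, h5, h6, -, -, h7⟩ := exists_fitting_idem h3
  have h8 : (A ^ 2 - 1) ^ k = 1 := by
    refine (IsUnit.pow k ?_).mul_left_cancel (h4.trans (mul_one _).symm)
    rw [show A ^ 2 - 1 = (A + 1) * (A - 1) by noncomm_ring]
    exact h2.mul h1
  rw [h8, sub_self, add_zero] at h6
  have h9 := commute_inv_mul hA hA' hG
  obtain ⟨y, hy, hy'⟩ := exists_star_mul_self (h5.trans h8) h6 (h := G⁻¹ * G')
    (hu.mul_left_cancel ((hs _).symm.trans (transpose_inv_mul hc hG h h')))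
    ((isUnit_nonsing_inv_iff.2 hu).mul ((isUnit_iff_isUnit_det _).2 hG'.isUnit)) (h7 _ h9.symm)
  exact ⟨y, (hy' A (h7 _ (Commute.refl _)) h9).symm, by
    rw [hs, mul_assoc, hy, mul_inv_mul_cancel hG]⟩

section Jordan

variable {T : Type*} [Fintype T] [DecidableEq T] {d : T → ℕ} {G G' : Matrix (JI d) (JI d) F}

theorem jform_cong (hG : (jm d F)ᵀ * G * jm d F = G) {x : Matrix (JI d) (JI d) F}
    (hx : Commute x (jm d F)) (i : ℕ) :
    jform d (xᵀ * G * x) i = (jrho d x i)ᵀ * jform d G i * jrho d x i := by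
  rw [Matrix.mul_assoc, jform_transpose_mul _ hx, jform_mul hG hx, Matrix.mul_assoc]
  rw [← Matrix.mul_assoc, Matrix.mul_assoc _ x, hx.eq, ← Matrix.mul_assoc, hG]

theorem transpose_jform (hG : (jm d F)ᵀ * G * jm d F = G) {r : ℕ} (h : Gᵀ = (-1 : F) ^ r • G)
    (i : ℕ) : (jform d G i)ᵀ = (-1 : F) ^ (i + r) • jform d G i := by
  have h1 := jform_transpose hG i
  rw [h] at h1
  rw [pow_add, mul_smul, show (-1 : F) ^ r • jform d G i = _ from h1, smul_smul, ← mul_pow]
  simp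

theorem jform_eq_mul (hG : (jm d F)ᵀ * G * jm d F = G) (hG' : (jm d F)ᵀ * G' * jm d F = G')
    (h : G.det ≠ 0) (i : ℕ) : jform d G' i = jform d G i * jrho d (G⁻¹ * G') i := by
  rw [← jform_mul hG (commute_inv_mul hG hG' h), mul_inv_mul_cancel h]

theorem det_mul_prod_jform (hG : (jm d F)ᵀ * G * jm d F = G) (hG' : (jm d F)ᵀ * G' * jm d F = G')
    (h : G.det ≠ 0) : G'.det * ∏ i ∈ univ.image d, (jform d G i).det ^ (i + 1) =
      G.det * ∏ i ∈ univ.image d, (jform d G' i).det ^ (i + 1) := by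
  simp only [jform_eq_mul hG hG' h, det_mul, mul_pow, prod_mul_distrib]
  rw [← det_commute_jm (commute_inv_mul hG hG' h), mul_left_comm, ← det_mul, mul_inv_mul_cancel h,
    mul_comm]

theorem det_ne_zero_of_jform (hG : (jm d F)ᵀ * G * jm d F = G) (hG' : (jm d F)ᵀ * G' * jm d F = G')
    (h : G.det ≠ 0) (h' : ∀ i, (jform d G' i).det ≠ 0) : G'.det ≠ 0 := fun h0 => by
  have := det_mul_prod_jform hG hG' h
  rw [h0, zero_mul] at this
  exact mul_ne_zero h (prod_ne_zero_iff.2 fun i _ => pow_ne_zero _ (h' i)) this.symm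

theorem cong_jm_of_jform_eq [Finite F] (h2 : (2 : F) ≠ 0) (hG : (jm d F)ᵀ * G * jm d F = G)
    (hG' : (jm d F)ᵀ * G' * jm d F = G') {c : F} (hc : c ≠ 0) (h : Gᵀ = c • G) (h' : G'ᵀ = c • G')
    (h0 : G.det ≠ 0) (hj : ∀ i, jform d G i = jform d G' i) : Cong (jm d F) G G' := by
  have h3 := commute_inv_mul hG hG' h0
  have h4 : IsNilpotent (G⁻¹ * G' - 1) :=
    isNilpotent_of_jrho (h3.sub_left (Commute.one_left _)) fun i => by
      have h5 := jform_eq_mul hG hG' h0 i
      rw [← hj, eq_comm, ((isUnit_iff_isUnit_det _).2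
        (det_jform_ne_zero hG h0 i).isUnit).mul_eq_left, ← jrho_one (d := d), ← sub_eq_zero] at h5
      exact h5
  obtain ⟨k, hk⟩ := exists_sq_pow_eq h2 h4
  refine ⟨_, h3.pow_left k, ?_⟩
  rw [transpose_pow_mul (transpose_inv_mul hc h0 h h'), mul_assoc, hk, mul_inv_mul_cancel h0]

theorem cong_jm [Finite F] (h2 : (2 : F) ≠ 0) (hG : (jm d F)ᵀ * G * jm d F = G)
    (hG' : (jm d F)ᵀ * G' * jm d F = G') {r : ℕ} (h : Gᵀ = (-1 : F) ^ r • G)
    (h' : G'ᵀ = (-1 : F) ^ r • G') (h0 : G.det ≠ 0) (h0' : G'.det ≠ 0)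
    (hs : ∀ i, Even (i + r) → IsSquare ((jform d G i).det * (jform d G' i).det)) :
    Cong (jm d F) G G' := by
  choose g hg using fun i => exists_cong_of_sign h2 (transpose_jform hG h i)
    (transpose_jform hG' h' i) (det_jform_ne_zero hG h0 i) (det_jform_ne_zero hG' h0' i) (hs i)
  have h1 := commute_jlift g
  have h3 : ∀ i, jform d ((jlift g)ᵀ * G * jlift g) i = jform d G' i := fun i => by
    rw [jform_cong hG h1, jrho_jlift, hg]
  exact Cong.trans ⟨_, h1, rfl⟩ (cong_jm_of_jform_eq h2 (inv_cong hG h1) hG' (by simp)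
    (transpose_cong h _) h' (det_ne_zero_of_jform hG (inv_cong hG h1) h0 fun i =>
      h3 i ▸ det_jform_ne_zero hG' h0' i) h3)

theorem isSquare_of_cong_jm (hG : (jm d F)ᵀ * G * jm d F = G) (h : Cong (jm d F) G G') (i : ℕ) :
    IsSquare ((jform d G i).det * (jform d G' i).det) := by
  obtain ⟨x, hx, rfl⟩ := h
  exact ⟨(jrho d x i).det * (jform d G i).det, by rw [jform_cong hG hx, det_cong]; ring⟩

theorem even_card_of_jform (h2 : (2 : F) ≠ 0) (hG : (jm d F)ᵀ * G * jm d F = G) {r : ℕ}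
    (h : Gᵀ = (-1 : F) ^ r • G) (h0 : G.det ≠ 0) {i : ℕ} (hi : Odd (i + r)) : Even #{s | d s = i} := by
  have h1 := congrArg det (transpose_jform hG h i)
  rw [det_transpose, det_smul, hi.neg_one_pow, Fintype.card_subtype] at h1
  by_contra h3
  rw [(Nat.not_even_iff_odd.1 h3).neg_one_pow] at h1
  exact mul_ne_zero h2 (det_jform_ne_zero hG h0 i) (by linear_combination h1)

end Jordan

section Blocks

theorem eq_zero_of_inv {A : Matrix n n F} {B : Matrix m m F} {H : Matrix n m F}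
    (h : Aᵀ * H * B = H) (hA : IsUnit (A - 1)) (hB : IsNilpotent (B - 1)) : H = 0 := by
  obtain ⟨k, hk⟩ := hB
  have h0 : (Aᵀ - 1).det ≠ 0 := by
    rw [← transpose_one, ← transpose_sub, det_transpose]
    exact ((isUnit_iff_isUnit_det _).1 hA).ne_zero
  have h1 : (Aᵀ - 1)⁻¹ * -Aᵀ * H * (B - 1) = H := by
    rw [Matrix.mul_assoc, Matrix.mul_assoc, show -Aᵀ * (H * (B - 1)) = (Aᵀ - 1) * H by
      simp [Matrix.mul_sub, Matrix.sub_mul, ← Matrix.mul_assoc, h]; abel,
      nonsing_inv_mul_cancel_left _ _ h0.isUnit]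
  have h2 : ∀ j, ((Aᵀ - 1)⁻¹ * -Aᵀ) ^ j * H * (B - 1) ^ j = H := fun j => by
    induction j with
    | zero => simp
    | succ j ih => rw [pow_succ, pow_succ' (B - 1), ← Matrix.mul_assoc, Matrix.mul_assoc (_ ^ j),
        Matrix.mul_assoc (_ ^ j), h1, ih]
  rw [← h2 k, hk, Matrix.mul_zero]

theorem eq_fromBlocks_of_inv {A : Matrix n n F} {B : Matrix m m F} (hA : IsUnit (A - 1))
    (hB : IsNilpotent (B - 1)) {G : Matrix (n ⊕ m) (n ⊕ m) F}
    (h : (fromBlocks A 0 0 B)ᵀ * G * fromBlocks A 0 0 B = G) :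
    G = fromBlocks G.toBlocks₁₁ 0 0 G.toBlocks₂₂ ∧ Aᵀ * G.toBlocks₁₁ * A = G.toBlocks₁₁ ∧
      Bᵀ * G.toBlocks₂₂ * B = G.toBlocks₂₂ := by
  rw [← fromBlocks_toBlocks G, fromBlocks_transpose, fromBlocks_multiply, fromBlocks_multiply,
    fromBlocks_inj] at h
  simp only [transpose_zero, Matrix.zero_mul, Matrix.mul_zero, add_zero, zero_add] at h
  refine ⟨?_, h.1, h.2.2.2⟩
  have h1 := congrArg transpose h.2.2.1
  rw [transpose_mul, transpose_mul, transpose_transpose, ← Matrix.mul_assoc] at h1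
  rw [← eq_zero_of_inv h.2.1 hA hB, ← transpose_eq_zero.1 (eq_zero_of_inv h1 hA hB),
    fromBlocks_toBlocks]

omit [DecidableEq n] [DecidableEq m] in
theorem Cong.fromBlocks {A G G' : Matrix n n F} {B H H' : Matrix m m F} (h : Cong A G G')
    (h' : Cong B H H') : Cong (fromBlocks A 0 0 B) (fromBlocks G 0 0 H) (fromBlocks G' 0 0 H') := by
  obtain ⟨x, hx, rfl⟩ := h
  obtain ⟨y, hy, rfl⟩ := h'
  exact ⟨Matrix.fromBlocks x 0 0 y, by simp [commute_iff_eq, fromBlocks_multiply, hx.eq, hy.eq],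
    by simp [fromBlocks_multiply, fromBlocks_transpose]⟩

theorem isUnit_fromBlocks_sub_one {A : Matrix n n F} {B : Matrix m m F} (hA : IsUnit (A - 1))
    (hB : IsUnit (B - 1)) : IsUnit (fromBlocks A 0 0 B - 1) := by
  rw [← fromBlocks_one, sub_eq_add_neg, fromBlocks_neg, fromBlocks_add]
  simpa [isUnit_iff_isUnit_det, sub_eq_add_neg] using And.intro hA hB

end Blocks

/-- A normal form adapted to the eigenvalues `1` and `-1`. -/
structure WModel (F : Type*) [Field F] where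
  k : ℕ
  A : Matrix (Fin k) (Fin k) F
  sub : IsUnit (A - 1)
  add : IsUnit (A + 1)
  t : Bool → ℕ
  d : ∀ b, Fin (t b) → ℕ

namespace WModel

variable (W : WModel F)

/-- The index set. -/
abbrev I : Type := (Fin W.k ⊕ JI (W.d false)) ⊕ JI (W.d true)

/-- The matrix. -/
def mat : Matrix W.I W.I F := fromBlocks (fromBlocks W.A 0 0 (-jm (W.d false) F)) 0 0 (jm (W.d true) F)

/-- The part of a form away from `±1`. -/
def g₀ (G : Matrix W.I W.I F) : Matrix (Fin W.k) (Fin W.k) F := G.toBlocks₁₁.toBlocks₁₁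

/-- The parts of a form at `±1`. -/
def g (G : Matrix W.I W.I F) : ∀ b, Matrix (JI (W.d b)) (JI (W.d b)) F
  | false => G.toBlocks₁₁.toBlocks₂₂
  | true => G.toBlocks₂₂

/-- Assembling a form. -/
def asm (G₀ : Matrix (Fin W.k) (Fin W.k) F) (H : ∀ b, Matrix (JI (W.d b)) (JI (W.d b)) F) :
    Matrix W.I W.I F := fromBlocks (fromBlocks G₀ 0 0 (H false)) 0 0 (H true)

variable {W}

theorem g_asm (G₀ : Matrix (Fin W.k) (Fin W.k) F) (H : ∀ b, Matrix (JI (W.d b)) (JI (W.d b)) F) :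
    W.g (W.asm G₀ H) = H := funext fun b => by cases b <;> rfl

theorem det_asm (G₀ : Matrix (Fin W.k) (Fin W.k) F) (H : ∀ b, Matrix (JI (W.d b)) (JI (W.d b)) F) :
    (W.asm G₀ H).det = G₀.det * ∏ b, (H b).det := by
  simp [asm, mul_assoc, mul_comm]

theorem cong_asm {G₀ G₀' : Matrix (Fin W.k) (Fin W.k) F}
    {H H' : ∀ b, Matrix (JI (W.d b)) (JI (W.d b)) F} (h : Cong W.A G₀ G₀')
    (h' : ∀ b, Cong (jm (W.d b) F) (H b) (H' b)) : Cong W.mat (W.asm G₀ H) (W.asm G₀' H') :=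
  (h.fromBlocks (h' false).neg).fromBlocks (h' true)

theorem transpose_g {G : Matrix W.I W.I F} {c : F} (h : Gᵀ = c • G) :
    (W.g₀ G)ᵀ = c • W.g₀ G ∧ ∀ b, (W.g G b)ᵀ = c • W.g G b :=
  ⟨ext fun _ _ => congrFun (congrFun h _) _, fun b => by
    cases b <;> exact ext fun _ _ => congrFun (congrFun h _) _⟩

theorem eq_asm (h2 : (2 : F) ≠ 0) {G : Matrix W.I W.I F} (h : W.matᵀ * G * W.mat = G) :
    G = W.asm (W.g₀ G) (W.g G) ∧ W.Aᵀ * W.g₀ G * W.A = W.g₀ G ∧
      ∀ b, (jm (W.d b) F)ᵀ * W.g G b * jm (W.d b) F = W.g G b := by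
  obtain ⟨h3, h4, h5⟩ := eq_fromBlocks_of_inv (isUnit_fromBlocks_sub_one W.sub (by
    rw [show -jm (W.d false) F - 1 = -(algebraMap F _ 2 + (jm (W.d false) F - 1)) by
      rw [map_ofNat, ← one_add_one_eq_two]; abel]
    exact ((jt_jm _).1.isUnit_add_left_of_commute
      ((IsUnit.mk0 _ h2).map (algebraMap F _)) (Algebra.commutes _ _).symm).neg)) (jt_jm _).1 h
  obtain ⟨h6, h7, h8⟩ := eq_fromBlocks_of_inv (A := -W.A) (B := jm (W.d false) F)
    (by rw [← neg_add']; exact W.add.neg) (jt_jm _).1 (G := G.toBlocks₁₁) (by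
      rw [← neg_neg (jm _ F), ← neg_zero, ← neg_zero (G := Matrix (JI _) _ F), ← fromBlocks_neg]
      simpa using h4)
  refine ⟨h3.trans (congrArg (fromBlocks · 0 0 _) h6), by simpa [g₀] using h7, fun b => ?_⟩
  cases b
  exacts [h8, h5]

theorem det_eq_prod (h2 : (2 : F) ≠ 0) {G : Matrix W.I W.I F} (h : W.matᵀ * G * W.mat = G) :
    G.det = (W.g₀ G).det * ∏ b, (W.g G b).det := by
  rw [← det_asm, ← (eq_asm h2 h).1]

theorem det_g_ne_zero (h2 : (2 : F) ≠ 0) {G : Matrix W.I W.I F} (h : W.matᵀ * G * W.mat = G)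
    (h0 : G.det ≠ 0) : (W.g₀ G).det ≠ 0 ∧ ∀ b, (W.g G b).det ≠ 0 := by
  rw [det_eq_prod h2 h, mul_ne_zero_iff, prod_ne_zero_iff] at h0
  exact ⟨h0.1, fun b => h0.2 b (mem_univ b)⟩

theorem cong_of_isSquare [Finite F] (h2 : (2 : F) ≠ 0) {G G' : Matrix W.I W.I F}
    (hG : W.matᵀ * G * W.mat = G) (hG' : W.matᵀ * G' * W.mat = G') {r : ℕ}
    (h : Gᵀ = (-1 : F) ^ r • G) (h' : G'ᵀ = (-1 : F) ^ r • G') (h0 : G.det ≠ 0) (h0' : G'.det ≠ 0)
    (hs : ∀ b i, Even (i + r) →
      IsSquare ((jform (W.d b) (W.g G b) i).det * (jform (W.d b) (W.g G' b) i).det)) :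
    Cong W.mat G G' := by
  rw [(eq_asm h2 hG).1, (eq_asm h2 hG').1]
  exact cong_asm (cong_of_isUnit W.sub W.add (eq_asm h2 hG).2.1 (eq_asm h2 hG').2.1 (by simp)
    (transpose_g h).1 (transpose_g h').1 (det_g_ne_zero h2 hG h0).1 (det_g_ne_zero h2 hG' h0').1)
    fun b => cong_jm h2 ((eq_asm h2 hG).2.2 b) ((eq_asm h2 hG').2.2 b) ((transpose_g h).2 b)
      ((transpose_g h').2 b) ((det_g_ne_zero h2 hG h0).2 b) ((det_g_ne_zero h2 hG' h0').2 b) (hs b)

end WModel

open Polynomial in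
/-- The linear polynomials with roots `±1`. -/
noncomputable def pm (F : Type*) [Field F] : Bool → F[X]
  | false => X + 1
  | true => X - 1

theorem pm_facts' (b : Bool) : Irreducible (pm F b) ∧ (pm F b).Monic ∧ pm F b ≠ Polynomial.X ∧
    tilde (RingHom.id F) (pm F b) = pm F b ∧ (pm F b).natDegree = 1 :=
  pm_facts (by cases b <;> simp [pm])

theorem pm_injective (h2 : (2 : F) ≠ 0) : Function.Injective (pm F) := by
  have h : pm F false ≠ pm F true := fun h => h2 (by
    have := congrArg (Polynomial.eval 0) h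
    simp [pm] at this
    linear_combination this)
  rintro (_ | _) (_ | _) h'
  exacts [rfl, absurd h' h, absurd h'.symm h, rfl]

theorem WModel.edM_mat (W : WModel F) :
    edM W.mat = edM W.A + ∑ b, univ.val.map fun t => (pm F b, W.d b t + 1) := by
  rw [WModel.mat, edM_fromBlocks, edM_fromBlocks, ← neg_one_smul F, edM_smul _ (by simp), edM_jm,
    edM_jm, Multiset.map_map, Fintype.sum_bool, add_assoc, add_comm (Multiset.map _ _)]
  congr 3
  funext t
  rw [Function.comp, ← Polynomial.C_1, Polynomial.X_sub_C_scaleRoots]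
  simp [pm]

theorem WModel.ne_pm (W : WModel F) {x : Polynomial F × ℕ} (hx : x ∈ edM W.A) (b : Bool) :
    x.1 ≠ pm F b := by
  refine (isUnit_aeval_iff_edM W.A (pm_facts' b).1 (pm_facts' b).2.1).1 ?_ x hx
  cases b
  · simpa [pm] using W.add
  · simpa [pm] using W.sub

theorem exists_wModel (h2 : (2 : F) ≠ 0) (A : Matrix n n F) : ∃ W : WModel F, edM A = edM W.mat := by
  classical
  obtain ⟨k, B, hB⟩ : ∃ (k : ℕ) (B : Matrix (Fin k) (Fin k) F),
      edM B = (edM A).filter fun x => ∀ b, x.1 ≠ pm F b := ⟨_, exists_edM_eq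
    (fun x hx => edM_valid A x (Multiset.mem_of_mem_filter hx)) (Fintype.card_fin _)⟩
  have h1 : ∀ b, IsUnit (Polynomial.aeval B (pm F b)) := fun b =>
    (isUnit_aeval_iff_edM B (pm_facts' b).1 (pm_facts' b).2.1).2 fun x hx =>
      (Multiset.mem_filter.1 (Multiset.mem_of_le hB.le hx)).2 b
  choose t d hd using fun b => exists_map_succ_eq
    (s := ((edM A).filter fun x => x.1 = pm F b).map Prod.snd) fun e he => by
      obtain ⟨x, hx, rfl⟩ := Multiset.mem_map.1 he
      exact (edM_valid A x (Multiset.mem_of_mem_filter hx)).2.2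
  refine ⟨⟨_, B, by simpa [pm] using h1 true, by simpa [pm] using h1 false, t, d⟩, ?_⟩
  have h3 : ∀ b, (univ.val.map fun t => (pm F b, d b t + 1)) = (edM A).filter fun x => x.1 = pm F b :=
    fun b => by
      have := congrArg (Multiset.map fun e => (pm F b, e)) (hd b)
      rw [Multiset.map_map, Multiset.map_map] at this
      refine this.symm.trans ((Multiset.map_congr rfl fun x hx => ?_).trans (Multiset.map_id _))
      exact Prod.ext (Multiset.mem_filter.1 hx).2.symm rfl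
  rw [WModel.edM_mat]
  simp only [hB, h3]
  ext x
  simp only [Multiset.count_add, Multiset.count_filter, Fintype.sum_bool, Bool.forall_bool]
  have := (pm_injective h2).ne (show false ≠ true by simp)
  by_cases h4 : x.1 = pm F false
  · simp [h4, this]
  · by_cases h5 : x.1 = pm F true <;> simp [h4, h5, this.symm]

section Transport

/-- The pair `(A, G)` is isomorphic to the pair `(M, H)`. -/
def Transp (A G : Matrix n n F) (M H : Matrix m m F) : Prop :=
  ∃ (P : Matrix n m F) (P' : Matrix m n F), P * P' = 1 ∧ P' * P = 1 ∧ A * P = P * M ∧ H = Pᵀ * G * P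

theorem exists_transp {A : Matrix n n F} {M : Matrix m m F} (h : edM A = edM M) (G : Matrix n n F) :
    ∃ H, Transp A G M H := by
  obtain ⟨e, he⟩ := sim_of_ed_eq h.symm
  refine ⟨_, LinearMap.toMatrix' e.toLinearMap, LinearMap.toMatrix' e.symm.toLinearMap, ?_, ?_, ?_, rfl⟩
  · rw [← LinearMap.toMatrix'_comp]; simp
  · rw [← LinearMap.toMatrix'_comp]; simp
  · refine toLin'.injective (LinearMap.ext fun v => ?_)
    simpa [toLin'_mul] using (he v).symm

variable {A B G : Matrix n n F} {M H H' : Matrix m m F}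

theorem Transp.edM_eq (h : Transp A G M H) : edM A = edM M := by
  obtain ⟨P, P', h1, h2, h3, -⟩ := h
  refine (Sim.ed_eq (S := toLin' M) (T := toLin' A) ⟨toLin'OfInv h2 h1, fun v => ?_⟩).symm
  simp [toLin'OfInv, h3]

theorem Transp.inv (h : Transp A G M H) (hA : Aᵀ * G * A = G) : Mᵀ * H * M = H := by
  obtain ⟨P, P', -, -, h3, rfl⟩ := h
  rw [cong_cong, ← h3, ← cong_cong, hA]

theorem Transp.transpose (h : Transp A G M H) {c : F} (hG : Gᵀ = c • G) : Hᵀ = c • H := by
  obtain ⟨P, P', -, -, -, rfl⟩ := h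
  exact transpose_cong hG P

theorem Transp.det_ne_zero (h : Transp A G M H) (hG : G.det ≠ 0) : H.det ≠ 0 := by
  obtain ⟨P, P', h1, h2, -, rfl⟩ := h
  refine left_ne_zero_of_mul_eq_one (b := (P' * G⁻¹ * P'ᵀ).det) ?_
  rw [← det_mul, Matrix.mul_assoc, Matrix.mul_assoc P', ← Matrix.mul_assoc P, h1, Matrix.one_mul,
    Matrix.mul_assoc, mul_inv_mul_cancel hG, ← transpose_mul, h2, transpose_one, det_one]

theorem Transp.exists_cong (h : Transp A G M H) (h' : Transp B G M H') :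
    ∃ x : Matrix m m F, H' = xᵀ * H * x := by
  obtain ⟨P, P', h1, -, -, rfl⟩ := h
  obtain ⟨R, R', -, -, -, rfl⟩ := h'
  exact ⟨P' * R, by rw [cong_cong, ← Matrix.mul_assoc P, h1, Matrix.one_mul]⟩

theorem Transp.cong_iff (h : Transp A G M H) (h' : Transp B G M H') :
    Cong M H H' ↔ ∃ Q, Qᵀ * G * Q = G ∧ Q * B = A * Q := by
  obtain ⟨P, P', h1, h2, h3, rfl⟩ := h
  obtain ⟨R, R', h4, h5, h6, rfl⟩ := h'
  have h7 : ∀ {X : Matrix n n F} {S : Matrix n m F} {S' : Matrix m n F}, S * S' = 1 → S' * S = 1 →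
      X * S = S * M → S' * X = M * S' := fun {X S S'} h h' h'' => by
    rw [← Matrix.mul_one (S' * X), ← h, ← Matrix.mul_assoc, Matrix.mul_assoc S', h'',
      ← Matrix.mul_assoc, h', Matrix.one_mul]
  constructor
  · rintro ⟨x, hx, hx'⟩
    refine ⟨P * x * R', ?_, ?_⟩
    · rw [← cong_cong, ← cong_cong, hx', cong_cong, h4]
      simp
    · rw [Matrix.mul_assoc, h7 h4 h5 h6, ← Matrix.mul_assoc, Matrix.mul_assoc P, hx.eq,
        ← Matrix.mul_assoc, ← h3, Matrix.mul_assoc A, Matrix.mul_assoc A]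
  · rintro ⟨Q, hQ, hQ'⟩
    refine ⟨P' * Q * R, ?_, ?_⟩
    · rw [commute_iff_eq, Matrix.mul_assoc, ← h6, ← Matrix.mul_assoc, Matrix.mul_assoc P', hQ',
        ← Matrix.mul_assoc, h7 h1 h2 h3, Matrix.mul_assoc M, Matrix.mul_assoc M]
    · rw [cong_cong, Matrix.mul_assoc P', ← Matrix.mul_assoc P, h1, Matrix.one_mul, ← cong_cong, hQ]

theorem exists_transp_of_sign [Finite F] (h2 : (2 : F) ≠ 0) {r : ℕ} (hG : Gᵀ = (-1 : F) ^ r • G)
    (hH : Hᵀ = (-1 : F) ^ r • H) (h : G.det ≠ 0) (h' : H.det ≠ 0)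
    (hc : Fintype.card m = Fintype.card n) (hs : Even r → IsSquare (G.det * H.det))
    (hM : Mᵀ * H * M = H) : ∃ A, Aᵀ * G * A = G ∧ Transp A G M H := by
  obtain ⟨e⟩ := Fintype.card_eq.1 hc
  obtain ⟨g, hg⟩ := exists_cong_of_sign h2 (H' := reindex e e H) hG
    (by rw [transpose_reindex, hH]; rfl) h (by simpa using h') (by simpa using hs)
  have h1 : IsUnit g.det := by
    have := det_cong G g
    rw [hg, det_reindex_self] at this
    exact (left_ne_zero_of_mul (left_ne_zero_of_mul (this ▸ h'))).isUnit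
  have h3 : g.submatrix id e * g⁻¹.submatrix e id = 1 := by
    rw [submatrix_mul_equiv, mul_nonsing_inv _ h1, submatrix_id_id]
  have h4 : g⁻¹.submatrix e id * g.submatrix id e = 1 := by
    rw [← submatrix_mul _ _ _ _ _ Function.bijective_id, nonsing_inv_mul _ h1, submatrix_one_equiv]
  have h5 : H = (g.submatrix id e)ᵀ * G * g.submatrix id e := by
    rw [transpose_submatrix, ← submatrix_id_id G, ← submatrix_mul _ _ _ _ _ Function.bijective_id,
      ← submatrix_mul _ _ _ _ _ Function.bijective_id, hg]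
    simp
  generalize g.submatrix id e = P at *
  generalize g⁻¹.submatrix e id = P' at *
  refine ⟨P * M * P', ?_, P, P', h3, h4, by rw [Matrix.mul_assoc, h4, Matrix.mul_one], h5⟩
  rw [← cong_cong, ← cong_cong, ← h5, hM, h5, cong_cong, h3]
  simp

end Transport

end CfsgLib.MatConj
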