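import Cfsg.Agent.Lib.MatConj.SelfRecip

/-!
Counting conjugacy classes of symplectic and orthogonal groups in odd characteristic.
-/

set_option autoImplicit false

namespace CfsgLib.MatConj

open Polynomial Matrix Finset

open scoped _root_.Classical

section General

theorem natCard_le_two_pow {α β : Type*} (I : Finset β) (σ : α → Finset β)
    (hσ : Function.Injective σ) (h : ∀ a, σ a ⊆ I) : Nat.card α ≤ 2 ^ #I := by
  rw [← card_powerset, ← Nat.card_eq_finsetCard]
  exact Nat.card_le_card_of_injective (fun a => ⟨σ a, mem_powerset.2 (h a)⟩)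
    fun _ _ h => hσ (Subtype.mk.inj h)

theorem two_mul_natCard_le_two_pow {α β : Type*} {I : Finset β} (σ : α → Finset β)
    (hσ : Function.Injective σ) (h : ∀ a, σ a ⊆ I) (hI : I.Nonempty)
    (hp : ∀ a b, Even #(σ a) ↔ Even #(σ b)) : 2 * Nat.card α ≤ 2 ^ #I := by
  obtain ⟨x, hx⟩ := hI
  rw [← card_erase_add_one hx, pow_succ']
  refine Nat.mul_le_mul_left _ (natCard_le_two_pow _ (fun a => (σ a).erase x) (fun a b hab => hσ ?_)
    fun a => erase_subset_erase _ (h a))
  have h1 := hp a b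
  dsimp only at hab
  by_cases ha : x ∈ σ a <;> by_cases hb : x ∈ σ b
  · rw [← insert_erase ha, hab, insert_erase hb]
  · rw [← card_erase_add_one ha, hab, erase_eq_of_notMem hb, Nat.even_add_one] at h1
    exact absurd h1 not_iff_self
  · rw [← card_erase_add_one hb, ← hab, erase_eq_of_notMem ha, Nat.even_add_one] at h1
    exact absurd h1 iff_not_self
  · rwa [erase_eq_of_notMem ha, erase_eq_of_notMem hb] at hab

theorem isSquare_mul_iff {F : Type*} [Field F] [Finite F] {a b : F} (ha : a ≠ 0) (hb : b ≠ 0) :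
    IsSquare (a * b) ↔ (IsSquare a ↔ IsSquare b) := by
  have := Fintype.ofFinite F
  rw [← quadraticChar_one_iff_isSquare ha, ← quadraticChar_one_iff_isSquare hb,
    ← quadraticChar_one_iff_isSquare (mul_ne_zero ha hb), map_mul]
  rcases quadraticChar_dichotomy ha with h | h <;> rcases quadraticChar_dichotomy hb with h' | h' <;>
    simp [h, h']

end General

variable {F : Type*} [Field F] {n : Type*} [Fintype n] [DecidableEq n]

theorem toData_add (s t : Multiset (F[X] × ℕ)) (i : ℕ) :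
    toData (s + t) i = toData s i * toData t i := by
  simp [toData]

theorem toData_map_univ {T : Type*} [Fintype T] (d : T → ℕ) (p : F[X]) (i : ℕ) :
    toData (univ.val.map fun t => (p, d t + 1)) i = p ^ #{t | d t = i} := by
  simp [toData, Multiset.filter_map, card, Finset.filter]

theorem quadraticChar_prod_jform [Fintype F] {T : Type*} [Fintype T] [DecidableEq T] {d : T → ℕ}
    {K : ℕ} (hK : ∀ t, d t < K) {G : Matrix (JI d) (JI d) F} (h : ∀ i, (jform d G i).det ≠ 0) :
    quadraticChar F (∏ i ∈ univ.image d, (jform d G i).det ^ (i + 1)) =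
      ∏ i : Fin K, if Even i.1 ∧ ¬ IsSquare (jform d G i).det then -1 else 1 := by
  rw [map_prod, ← prod_range (f := fun i => if Even i ∧ ¬ IsSquare (jform d G i).det then -1 else 1)]
  refine prod_subset_one_on_sdiff (fun i hi => ?_) (fun i hi => ?_) fun i _ => ?_
  · obtain ⟨t, -, rfl⟩ := mem_image.1 hi
    exact mem_range.2 (hK t)
  · have : IsEmpty {s // d s = i} := ⟨fun s => (mem_sdiff.1 hi).2 (mem_image.2 ⟨s.1, mem_univ _, s.2⟩)⟩
    simp
  · simp only [map_pow, ← quadraticChar_neg_one_iff_not_isSquare]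
    rcases quadraticChar_dichotomy (h i) with h1 | h1
    · simp [h1]
    · rcases i.even_or_odd with h2 | h2 <;> simp [h1, pow_succ, h2.neg_one_pow, h2]

namespace WModel

variable (W : WModel F)

theorem toData_mat (i : ℕ) :
    toData (edM W.mat) i = toData (edM W.A) i * ∏ b, pm F b ^ #{t | W.d b t = i} := by
  simp only [edM_mat, toData_add, toData_map_univ, Fintype.sum_bool, Fintype.prod_bool]

theorem not_pm_dvd (i : ℕ) (b : Bool) : ¬ pm F b ∣ toData (edM W.A) i := fun h =>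
  W.ne_pm ((dvd_toData_iff (edM_valid _) i (pm_facts' b).1 (pm_facts' b).2.1).1 h) b rfl

theorem mem_edM_mat (b : Bool) (t : Fin (W.t b)) : (pm F b, W.d b t + 1) ∈ edM W.mat := by
  rw [edM_mat]
  exact Multiset.mem_add.2 (Or.inr (Multiset.mem_sum.2 ⟨b, mem_univ _,
    Multiset.mem_map_of_mem _ (mem_univ t)⟩))

theorem exists_of_pm_dvd (h2 : (2 : F) ≠ 0) {i : ℕ} {b : Bool} (h : pm F b ∣ toData (edM W.mat) i) :
    ∃ t, W.d b t = i := by
  rw [toData_mat] at h
  obtain ⟨c, -, h1⟩ := ((pm_facts' b).1.prime.dvd_finsetProd_iff _).1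
    (((pm_facts' b).1.prime.dvd_or_dvd h).resolve_left (W.not_pm_dvd i b))
  obtain rfl : b = c := not_not.1 fun h3 =>
    not_pm_dvd_pm h2 h3 ((pm_facts' b).1.prime.dvd_of_dvd_pow h1)
  by_contra h3
  rw [filter_eq_empty_iff.2 fun t _ ht => h3 ⟨t, ht⟩] at h1
  exact (pm_facts' b).1.not_dvd_one h1

/-- The positions with non-square discriminant. -/
noncomputable def negs (K r : ℕ) (G : Matrix W.I W.I F) : Finset (Fin K × Bool) :=
  {x | Even (x.1 + r) ∧ ¬ IsSquare (jform (W.d x.2) (W.g G x.2) x.1).det}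

variable {W} (h2 : (2 : F) ≠ 0) {G G' : Matrix W.I W.I F} (hG : W.matᵀ * G * W.mat = G)
  (h0 : G.det ≠ 0)
include h2 hG h0

theorem pal_toData (i : ℕ) : Pal (toData (edM W.A) i) := by
  have h1 := (det_g_ne_zero h2 hG h0).1
  have h3 := (eq_asm h2 hG).2.1
  refine SR.pal h2 ⟨fun h => ?_, (toData_map (tildeHom _) _ _).symm.trans
    (congrArg (toData · i) (edM_recip_of_gram h1 h3))⟩ (W.not_pm_dvd i)
  exact (isUnit_iff_edM _).1 ((isUnit_iff_isUnit_det _).2 (det_ne_zero_of_inv h3 h1).isUnit) _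
    ((dvd_toData_iff (edM_valid _) i irreducible_X monic_X).1 (X_dvd_iff.2 h)) rfl

theorem det_jform_g_ne_zero (b : Bool) (i : ℕ) : (jform (W.d b) (W.g G b) i).det ≠ 0 :=
  det_jform_ne_zero ((eq_asm h2 hG).2.2 b) ((det_g_ne_zero h2 hG h0).2 b) i

theorem pal_toData_mat {r : ℕ} (h : Gᵀ = (-1 : F) ^ r • G) {i : ℕ} (hi : Odd (i + r)) :
    Pal (toData (edM W.mat) i) := by
  have h1 : ∀ b, Pal (pm F b ^ #{t | W.d b t = i}) := fun b => pal_pm_pow b
    (even_card_of_jform h2 ((eq_asm h2 hG).2.2 b) ((transpose_g h).2 b)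
      ((det_g_ne_zero h2 hG h0).2 b) hi)
  rw [toData_mat, Fintype.prod_bool]
  exact (pal_toData h2 hG h0 i).mul ((h1 _).mul (h1 _))

variable [Finite F] (hG' : W.matᵀ * G' * W.mat = G') (h0' : G'.det ≠ 0) {r : ℕ}
  (h : Gᵀ = (-1 : F) ^ r • G) (h' : G'ᵀ = (-1 : F) ^ r • G') {K : ℕ} (hK : ∀ b t, W.d b t < K)
include hG' h0' h h' hK

theorem cong_of_negs_eq (hs : W.negs K r G = W.negs K r G') : Cong W.mat G G' := by
  refine cong_of_isSquare h2 hG hG' h h' h0 h0' fun b i hi => ?_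
  by_cases h1 : i < K
  · have := Finset.ext_iff.1 hs (⟨i, h1⟩, b)
    simp only [negs, mem_filter, mem_univ, hi, true_and, not_iff_not] at this
    exact (isSquare_mul_iff (det_jform_g_ne_zero h2 hG h0 b i)
      (det_jform_g_ne_zero h2 hG' h0' b i)).2 this
  · have : IsEmpty {s // W.d b s = i} := ⟨fun s => h1 (s.2 ▸ hK b s.1)⟩
    simp

theorem even_card_negs_iff (hr : Even r) (hs : IsSquare (G.det * G'.det)) :
    Even #(W.negs K r G) ↔ Even #(W.negs K r G') := by
  have := Fintype.ofFinite F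
  have h1 : ∀ {G : Matrix W.I W.I F}, W.matᵀ * G * W.mat = G → G.det ≠ 0 →
      quadraticChar F (∏ b, ∏ i ∈ univ.image (W.d b), (jform (W.d b) (W.g G b) i).det ^ (i + 1)) =
        (-1) ^ #(W.negs K r G) := fun {G} hG h0 => by
    rw [map_prod, prod_congr rfl fun b _ =>
      quadraticChar_prod_jform (hK b) (det_jform_g_ne_zero h2 hG h0 b), prod_comm, negs,
      ← prod_const, prod_filter, Fintype.prod_prod_type]
    simp [Nat.even_add, hr]
  have h3 := prod_congr rfl fun b (_ : b ∈ univ) => det_mul_prod_jform ((eq_asm h2 hG).2.2 b)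
    ((eq_asm h2 hG').2.2 b) ((det_g_ne_zero h2 hG h0).2 b)
  obtain ⟨x, -, hx⟩ := cong_of_isUnit W.sub W.add (eq_asm h2 hG).2.1 (eq_asm h2 hG').2.1 (by simp)
    (transpose_g h).1 (transpose_g h').1 (det_g_ne_zero h2 hG h0).1 (det_g_ne_zero h2 hG' h0').1
  have h4 := det_cong (W.g₀ G) x
  rw [hx] at h4
  have h5 : x.det ≠ 0 := fun h5 => (det_g_ne_zero h2 hG' h0').1 (by rw [h4, h5, zero_mul, zero_mul])
  rw [prod_mul_distrib, prod_mul_distrib] at h3
  have h7 := h1 hG h0
  have h8 := h1 hG' h0'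
  generalize (∏ b, ∏ i ∈ univ.image (W.d b), (jform (W.d b) (W.g G b) i).det ^ (i + 1)) = u at *
  generalize (∏ b, ∏ i ∈ univ.image (W.d b), (jform (W.d b) (W.g G' b) i).det ^ (i + 1)) = v at *
  have h6 := congrArg (quadraticChar F) (show G.det * G'.det * u = (G.det * x.det) ^ 2 * v by
    rw [det_eq_prod h2 hG', h4, mul_assoc, mul_assoc _ (∏ b, _), h3, det_eq_prod h2 hG]
    ring)
  rw [map_mul, map_mul _ (_ ^ 2), h7, h8, quadraticChar_sq_one' (mul_ne_zero h0 h5),
    (quadraticChar_one_iff_isSquare (mul_ne_zero h0 h0')).2 hs, one_mul, one_mul] at h6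
  rw [← neg_one_pow_eq_one_iff_even (R := ℤ) (by norm_num),
    ← neg_one_pow_eq_one_iff_even (R := ℤ) (by norm_num), h6]

end WModel

/-- The positions carrying a sign. -/
noncomputable def posI (r : ℕ) {K : ℕ} (x : Fin K → F[X]) : Finset (Fin K × Bool) :=
  {y | Even (y.1 + r) ∧ pm F y.2 ∣ x y.1}

theorem two_pow_card_posI (r : ℕ) {K : ℕ} (x : Fin K → F[X]) : (2 : ℝ) ^ #(posI r x) =
    ∏ i : Fin K, if Even (i + r) then 2 ^ #{b | pm F b ∣ x i} else 1 := by
  rw [posI, card_filter, Fintype.sum_prod_type, ← prod_pow_eq_pow_sum]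
  refine prod_congr rfl fun i _ => ?_
  split_ifs with h <;> simp [h]

theorem WModel.negs_subset (W : WModel F) (K r : ℕ) (G : Matrix W.I W.I F) :
    W.negs K r G ⊆ posI r (matD K W.mat) := fun x hx => by
  obtain ⟨-, h1, h2⟩ := mem_filter.1 hx
  refine mem_filter.2 ⟨mem_univ _, h1, ?_⟩
  obtain ⟨s⟩ : Nonempty {s // W.d x.2 s = x.1} := not_isEmpty_iff.1 fun _ => h2 (by simp)
  exact (dvd_toData_iff (edM_valid _) _ (pm_facts' _).1 (pm_facts' _).2.1).2 (s.2 ▸ W.mem_edM_mat _ _)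

theorem WModel.d_lt {W : WModel F} {A : Matrix n n F} (h : edM A = edM W.mat) (b : Bool)
    (t : Fin (W.t b)) : W.d b t < Fintype.card n :=
  exp_le_card (x := (pm F b, W.d b t + 1)) (h ▸ W.mem_edM_mat b t)

/-- A group realised as the isometry group of a matrix. -/
structure IsoGrp {Γ : Type*} [Group Γ] (ι : Γ →* Matrix n n F) (G : Matrix n n F) (r : ℕ) : Prop where
  inj : Function.Injective ι
  mem : ∀ g, (ι g)ᵀ * G * ι g = G
  sur : ∀ Q, Qᵀ * G * Q = G → ∃ g, ι g = Q
  det : G.det ≠ 0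
  sym : Gᵀ = (-1 : F) ^ r • G

namespace IsoGrp

variable {Γ : Type*} [Group Γ] {ι : Γ →* Matrix n n F} {G : Matrix n n F} {r : ℕ} (hΓ : IsoGrp ι G r)
include hΓ

theorem cong_iff {m : Type*} [Fintype m] [DecidableEq m] {M H H' : Matrix m m F} {g g' : Γ}
    (h : Transp (ι g) G M H) (h' : Transp (ι g') G M H') : Cong M H H' ↔ IsConj g g' := by
  rw [h.cong_iff h', isConj_comm, isConj_iff]
  constructor
  · rintro ⟨Q, h1, h2⟩
    obtain ⟨c, rfl⟩ := hΓ.sur Q h1
    exact ⟨c, mul_inv_eq_of_eq_mul (hΓ.inj (by rw [map_mul, map_mul, h2]))⟩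
  · rintro ⟨c, rfl⟩
    exact ⟨ι c, hΓ.mem c, by simp only [← map_mul, inv_mul_cancel_right]⟩

theorem mem_famD (h2 : (2 : F) ≠ 0) [Finite F] {K : ℕ} (hK : Fintype.card n ≤ K) (g : Γ) :
    matD K (ι g) ∈ famD K (fun i => monS (if Even (i + r) then SR else Pal) (Fintype.card n))
      (Fintype.card n) := by
  refine matD_mem_famD hK (P := fun i => if Even (i + r) then SR else Pal) fun i => ?_
  split_ifs with h
  · exact ⟨matD_coeff_zero_ne_zero K ((Group.isUnit g).map ι) i,
      matD_tilde K (edM_recip_of_gram hΓ.det (hΓ.mem g)) i⟩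
  · obtain ⟨W, hW⟩ := exists_wModel h2 (ι g)
    obtain ⟨H, hH⟩ := exists_transp hW G
    rw [matD, hW]
    exact WModel.pal_toData_mat h2 (hH.inv (hΓ.mem g)) (hH.det_ne_zero hΓ.det) (hH.transpose hΓ.sym)
      (Nat.not_even_iff_odd.1 h)

theorem card_fiber_le (h2 : (2 : F) ≠ 0) [Finite F] {K : ℕ} (hK : Fintype.card n ≤ K)
    (x : Fin K → F[X]) :
    Nat.card {C : ConjClasses Γ // ∃ g, ConjClasses.mk g = C ∧ True ∧ matD K (ι g) = x} ≤
      2 ^ #(posI r x) ∧ (Even r → (posI r x).Nonempty →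
      2 * Nat.card {C : ConjClasses Γ // ∃ g, ConjClasses.mk g = C ∧ True ∧ matD K (ι g) = x} ≤
        2 ^ #(posI r x)) := by
  rcases isEmpty_or_nonempty {C : ConjClasses Γ // ∃ g, ConjClasses.mk g = C ∧ True ∧
    matD K (ι g) = x} with h | ⟨⟨-, g₀, -, -, rfl⟩⟩
  · rw [Nat.card_of_isEmpty]
    simp
  obtain ⟨W, hW⟩ := exists_wModel h2 (ι g₀)
  have h1 : ∀ C : {C : ConjClasses Γ // ∃ g, ConjClasses.mk g = C ∧ True ∧
      matD K (ι g) = matD K (ι g₀)}, ∃ g H, ConjClasses.mk g = C.1 ∧ Transp (ι g) G W.mat H :=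
    fun ⟨C, g, h1, _, h3⟩ => by
      obtain ⟨H, hH⟩ := exists_transp ((isConj_iff_edM.1 ((matD_eq_iff hK).1 h3)).trans hW) G
      exact ⟨g, H, h1, hH⟩
  choose g H h1 h3 using h1
  have h4 : ∀ b t, W.d b t < K := fun b t => (WModel.d_lt hW b t).trans_le hK
  have h5 : Function.Injective fun C => W.negs K r (H C) := fun C C' h => Subtype.ext (by
    rw [← h1, ← h1, ConjClasses.mk_eq_mk_iff_isConj, ← hΓ.cong_iff (h3 C) (h3 C')]
    exact WModel.cong_of_negs_eq h2 ((h3 C).inv (hΓ.mem _)) ((h3 C).det_ne_zero hΓ.det)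
      ((h3 C').inv (hΓ.mem _)) ((h3 C').det_ne_zero hΓ.det) ((h3 C).transpose hΓ.sym)
      ((h3 C').transpose hΓ.sym) h4 h)
  have h6 : ∀ C, W.negs K r (H C) ⊆ posI r (matD K (ι g₀)) := fun C => by
    rw [show matD K (ι g₀) = matD K W.mat from funext fun i => congrArg (toData · i) hW]
    exact W.negs_subset K r _
  refine ⟨natCard_le_two_pow _ _ h5 h6, fun hr h7 => two_mul_natCard_le_two_pow _ h5 h6 h7
    fun C C' => WModel.even_card_negs_iff h2 ((h3 C).inv (hΓ.mem _)) ((h3 C).det_ne_zero hΓ.det)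
      ((h3 C').inv (hΓ.mem _)) ((h3 C').det_ne_zero hΓ.det) ((h3 C).transpose hΓ.sym)
      ((h3 C').transpose hΓ.sym) h4 hr ?_⟩
  obtain ⟨y, hy⟩ := (h3 C).exists_cong (h3 C')
  exact ⟨y.det * (H C).det, by rw [hy, det_cong]; ring⟩

omit hΓ in
theorem sum_two_pow_posI_le (h2 : (2 : F) ≠ 0) [Finite F] (r K N : ℕ) :
    ∑ x ∈ famD K (fun i => monS (if Even (i + r) then SR else Pal) N) N, (2 : ℝ) ^ #(posI (F := F) r x) ≤
      PowerSeries.coeff N (∏ i ∈ range K, ex i (if Even (i + r) then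
        (1 + PowerSeries.X) ^ 4 * geo2 (Nat.card F) else geo2 (Nat.card F))) := by
  simp only [two_pow_card_posI]
  refine sum_famD_le K _ (w := fun i f => if Even (i + r) then 2 ^ #{b | pm F b ∣ f} else 1)
    (fun i f => by split_ifs <;> positivity) (fun i => ?_) N
  split_ifs
  exacts [gfS_sr_le h2 N, gfS_pal_le N]

omit hΓ in
theorem sum_posI_empty_le (h2 : (2 : F) ≠ 0) [Finite F] (r K N : ℕ) :
    ∑ x ∈ famD K (fun i => monS (if Even (i + r) then SR else Pal) N) N,
      (if (posI (F := F) r x).Nonempty then (0 : ℝ) else 1) ≤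
      PowerSeries.coeff N (∏ i ∈ range K, ex i (geo2 (Nat.card F))) := by
  refine le_trans (sum_le_sum fun x _ => ?_) (sum_famD_le K _ (w := fun i f =>
    if Even (i + r) then (if ∀ b, ¬ pm F b ∣ f then 1 else 0) else 1)
    (fun i f => by split_ifs <;> positivity) (fun i => ?_) N)
  · split_ifs with h
    · exact prod_nonneg fun i _ => by split_ifs <;> positivity
    · refine (prod_eq_one fun i _ => ?_).ge
      split_ifs with h3 h4
      exacts [rfl, absurd (fun b hb => h ⟨(i, b), mem_filter.2 ⟨mem_univ _, h3, hb⟩⟩) h4, rfl]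
  · split_ifs
    exacts [gfS_sr_zero_le h2 N, gfS_pal_le N]

omit hΓ in
theorem posI_nonempty (h2 : (2 : F) ≠ 0) [Finite F] {r K N : ℕ} (hN : Odd N) {x : Fin K → F[X]}
    (hx : x ∈ famD K (fun i => monS (if Even (i + r) then SR else Pal) N) N) :
    (posI r x).Nonempty := by
  by_contra h
  obtain ⟨h3, rfl⟩ := CfsgLib.MatConj.mem_famD.1 hx
  refine Nat.not_even_iff_odd.2 hN (even_sum _ fun i _ => Even.mul_left ?_ _)
  have h4 := (mem_monS.1 (h3 i)).2.2
  split_ifs at h4 with h5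
  · exact (SR.pal h2 h4 fun b hb => h ⟨(i, b), mem_filter.2 ⟨mem_univ _, h5, hb⟩⟩).1
  · exact h4.1

variable [Fintype F] (hq : Odd (Fintype.card F))
include hq

omit hΓ in
theorem two_ne_zero_of_odd : (2 : F) ≠ 0 :=
  Ring.two_ne_zero fun h => by
    have := FiniteField.even_card_of_char_two h
    have := Nat.odd_iff.1 hq
    omega

omit hΓ in
theorem three_le_of_odd : (3 : ℝ) ≤ Nat.card F := by
  have := Fintype.one_lt_card (α := F)
  have := Nat.odd_iff.1 hq
  rw [Nat.card_eq_fintype_card]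
  exact_mod_cast (by omega : 3 ≤ Fintype.card F)

theorem card_le_alt (hr : Odd r) : (Nat.card (ConjClasses Γ) : ℝ) ≤
    54 / 5 * (Fintype.card F : ℝ) ^ (Fintype.card n / 2) := by
  have := Finite.of_injective _ hΓ.inj
  have h2 := two_ne_zero_of_odd hq
  have hK : Fintype.card n ≤ 2 * (Fintype.card n + 1) := by omega
  rw [card_conjClasses_eq]
  refine (card_classes_le_sum _ _ _ (fun g _ => hΓ.mem_famD h2 hK g) _ fun x _ =>
    by exact_mod_cast (hΓ.card_fiber_le h2 hK x).1).trans ((sum_two_pow_posI_le h2 r _ _).trans ?_)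
  simpa [prod_range_two_mul, wt2, Nat.even_add, Nat.not_even_iff_odd.2 hr,
    ← Nat.not_even_iff_odd] using bd_Sp (three_le_of_odd hq) (Fintype.card n) (Fintype.card n)

theorem two_mul_card_le_symm (hr : Even r) : 2 * (Nat.card (ConjClasses Γ) : ℝ) ≤
    (if Even (Fintype.card n) then 93 / 5 else 144 / 5) *
      (Fintype.card F : ℝ) ^ (Fintype.card n / 2) := by
  have := Finite.of_injective _ hΓ.inj
  have h2 := two_ne_zero_of_odd hq
  have hK : Fintype.card n ≤ 2 * (Fintype.card n + 1) := by omega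
  have h3 := card_classes_le_sum (fun _ => True) _ _ (fun g _ => hΓ.mem_famD h2 hK g)
    (fun x => (2 ^ #(posI r x) + if (posI r x).Nonempty then 0 else 1) / 2) fun x _ => by
      obtain ⟨h3, h4⟩ := hΓ.card_fiber_le h2 hK x
      rw [le_div_iff₀' two_pos]
      split_ifs with h
      · rw [add_zero]
        exact_mod_cast h4 hr h
      · rw [not_nonempty_iff_eq_empty.1 h] at h3 ⊢
        exact_mod_cast Nat.mul_le_mul_left 2 h3
  rw [← card_conjClasses_eq, ← sum_div, le_div_iff₀' two_pos, sum_add_distrib] at h3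
  have h4 := sum_two_pow_posI_le h2 r (2 * (Fintype.card n + 1)) (Fintype.card n)
  have h5 := sum_posI_empty_le h2 r (2 * (Fintype.card n + 1)) (Fintype.card n)
  have h6 := bd_O (three_le_of_odd hq) (Fintype.card n) (Fintype.card n)
  have h7 := bd_O_zero (three_le_of_odd hq) (Fintype.card n) (Fintype.card n)
  have h8 : Odd (Fintype.card n) → _ := fun h => sum_eq_zero
    (f := fun x => if (posI (F := F) r x).Nonempty then (0 : ℝ) else 1)
    fun x hx => if_pos (posI_nonempty h2 (K := 2 * (Fintype.card n + 1)) h hx)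
  generalize famD (F := F) _ _ _ = S at *
  simp only [prod_range_two_mul, Nat.even_add, hr, even_two_mul, Nat.not_even_one, iff_false,
    not_true, false_iff, iff_self, if_true, if_false, wt2, ite_self, Nat.card_eq_fintype_card]
    at h4 h5 h6 h7
  split_ifs at h6 ⊢ with h
  · linarith
  · linarith [h8 (Nat.not_even_iff_odd.1 h)]

end IsoGrp

theorem isoGrp_sp (l : Type*) [Fintype l] [DecidableEq l] :
    IsoGrp (symplecticGroup l F).subtype (J l F) 1 where
  inj := Subtype.val_injective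
  mem g := SymplecticGroup.mem_iff'.1 g.2
  sur Q h := ⟨⟨Q, SymplecticGroup.mem_iff'.2 h⟩, rfl⟩
  det := (isUnit_det_J l F).ne_zero
  sym := by simp

end CfsgLib.MatConj
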