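import Cfsg.Agent.Lib.MatConj.WallOrth
import Cfsg.Agent.Lib.MatConj.IndexFour
import Cfsg.Agent.Lib.Spec.Wall

/-!
The class number of the commutator subgroup of an odd-dimensional orthogonal group.
-/

set_option autoImplicit false

namespace CfsgLib.MatConj

open Polynomial Matrix Finset QuadraticMap CfsgLib.Orth CfsgLib.Spec

variable {F : Type*} [Field F] {n m : Type*} [Fintype n] [DecidableEq n] [Fintype m] [DecidableEq m]

theorem exists_refl_matrix {A G : Matrix n n F} (hG : Gᵀ = G) (hA : Aᵀ * G * A = G)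
    {Y : Matrix n m F} {B : Matrix m m F} (h : A * Y = Y * B) (h0 : (Yᵀ * G * Y).det ≠ 0) :
    ∃ S : Matrix n n F, Sᵀ * G * S = G ∧ S * A = A * S ∧ S * Y = -Y ∧
      ∃ Z : Matrix m n F, S = 1 - (2 : F) • (Y * Z) := by
  have h1 : (Yᵀ * G * Y)ᵀ = Yᵀ * G * Y := by simp [hG, Matrix.mul_assoc]
  have h2 : Bᵀ * (Yᵀ * G * Y) * B = Yᵀ * G * Y := by rw [cong_cong, ← h, ← cong_cong, hA]
  have h3 : (Yᵀ * G * Y)⁻¹ * (Yᵀ * G) * Y = 1 := by rw [Matrix.mul_assoc, nonsing_inv_mul _ h0.isUnit]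
  have h4 : (Y * ((Yᵀ * G * Y)⁻¹ * (Yᵀ * G)))ᵀ * G = G * (Y * ((Yᵀ * G * Y)⁻¹ * (Yᵀ * G))) := by
    rw [transpose_mul, transpose_mul, transpose_nonsing_inv, h1]
    simp [hG, Matrix.mul_assoc]
  have h5 : B * (Yᵀ * G * Y)⁻¹ * Bᵀ = (Yᵀ * G * Y)⁻¹ := by
    refine (inv_eq_left_inv ?_).symm
    rw [mul_assoc, mul_assoc, mul_eq_one_comm, mul_assoc, h2, nonsing_inv_mul _ h0.isUnit]
  have h6 : Y * ((Yᵀ * G * Y)⁻¹ * (Yᵀ * G)) * A = A * (Y * ((Yᵀ * G * Y)⁻¹ * (Yᵀ * G))) := by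
    rw [← Matrix.mul_assoc A, h]
    nth_rw 1 [← h5]
    nth_rw 4 [← hA]
    simp only [Matrix.mul_assoc]
    rw [← Matrix.mul_assoc Bᵀ, ← Matrix.mul_assoc Yᵀ Aᵀ, ← transpose_mul, ← transpose_mul, h]
  generalize (Yᵀ * G * Y)⁻¹ * (Yᵀ * G) = Z at h3 h4 h6
  have h7 : Y * Z * Y = Y := by rw [Matrix.mul_assoc, h3, Matrix.mul_one]
  have h8 : Y * Z * (Y * Z) = Y * Z := by rw [← Matrix.mul_assoc, h7]
  refine ⟨_, ?_, ?_, ?_, Z, rfl⟩ <;> generalize Y * Z = E at *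
  · simp only [transpose_sub, transpose_one, transpose_smul, sub_mul, mul_sub, one_mul, mul_one,
      smul_mul_assoc, mul_smul_comm, h4]
    rw [mul_assoc, h8]
    module
  · simp only [sub_mul, mul_sub, one_mul, mul_one, smul_mul_assoc, mul_smul_comm, h6]
  · rw [Matrix.sub_mul, Matrix.smul_mul, h7, Matrix.one_mul]
    module

theorem exists_refl_isometry [Finite F] (h2 : (2 : F) ≠ 0) {ι : Type} [Fintype ι] [DecidableEq ι]
    {Q : QuadraticForm F (ι → F)} (hQ : (polarBilin Q).Nondegenerate)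
    (h24 : Nat.card F ≠ 2 ∨ Module.finrank F (ι → F) ≠ 4) (g : Cfsg.isometryGroup F ⇑Q)
    {Y : Matrix ι m F} {B : Matrix m m F} (h : g.1.1 * Y = Y * B)
    (h0 : (Yᵀ * Orth.gram Q (Pi.basisFun F ι) * Y).det ≠ 0) :
    ∃ s : Cfsg.isometryGroup F ⇑Q, Commute g s ∧ dickson hQ h24 (toOG Q s) = (-1) ^ Fintype.card m ∧
      (spinor hQ h24 (toOG Q s) = 1 ↔
        IsSquare (2 ^ Fintype.card m * (Yᵀ * Orth.gram Q (Pi.basisFun F ι) * Y).det)) := by
  have hΓ := isoGrp_orth h2 hQ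
  obtain ⟨S, h1, h3, h4, Z, h5⟩ := exists_refl_matrix (by simpa using hΓ.sym) (hΓ.mem g) h h0
  obtain ⟨s, rfl⟩ := hΓ.sur S h1
  have h6 : ∀ j, Y.col j - (toOG Q s).1 (Y.col j) = ((2 : F) • Y).col j := fun j => by
    ext i
    refine (congrArg (Y i j - ·) (congrFun (congrFun h4 i) j)).trans ?_
    simp [two_mul]
  have h7 : IsWall (toOG Q s) Y.col := by
    simp only [IsWall, h6]
    refine ⟨mulVec_injective_iff.1 fun u v huv => ?_, fun v hv => ?_⟩
    · refine mulVec_injective_iff_isUnit.2 ((isUnit_iff_isUnit_det _).2 h0.isUnit) ?_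
      simp only [smul_mulVec, smul_right_inj h2] at huv
      rw [← mulVec_mulVec, huv, mulVec_mulVec]
    · obtain ⟨x, rfl⟩ := mem_movSpace.1 hv
      rw [← range_mulVecLin, toOG_apply]
      exact ⟨-Z *ᵥ x, by simp [show s.1.1 = _ from h5, sub_mulVec, neg_mulVec, mulVec_neg,
        smul_mulVec]⟩
  refine ⟨s, hΓ.inj (by rw [map_mul, map_mul]; exact h3.symm), by rw [dickson_apply, h7.card_eq], ?_⟩
  rw [h7.spinor_iff h2 hQ h24, ← det_smul]
  congr! 2
  ext i j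
  rw [wallMat, of_apply, h6, polar_eq_toBilin', toBilin'_apply', Matrix.mul_assoc, ← Matrix.smul_mul]
  simp [mul_apply, dotProduct, mulVec]

theorem exists_kappa [Finite F] (h2 : (2 : F) ≠ 0) {i : ℕ} (hi : Even i) : ∃ κ : F, κ ≠ 0 ∧
    ∀ G : Matrix (JI fun _ : Unit => i) (JI fun _ : Unit => i) F,
      (jm (fun _ => i) F)ᵀ * G * jm (fun _ => i) F = G → G (jlst _ ()) (jfst _ ()) ≠ 0 →
      G.det ≠ 0 ∧ (IsSquare (2 ^ (i + 1) * G.det) ↔ IsSquare (κ * G (jlst _ ()) (jfst _ ()))) := by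
  obtain ⟨k, rfl⟩ := hi.two_dvd
  obtain ⟨ι, _, _, A, T, h3, h4, h5⟩ := quadReal_odd h2 (p := X - 1) (Or.inl rfl) k
  obtain ⟨R, hR⟩ := exists_transp (M := jm (fun _ : Unit => 2 * k) F) (h3.trans (by simp [edM_jm]))
    (T + Tᵀ)
  have h6 := hR.inv (toBilin'.injective (LinearMap.ext₂ fun u v => by
    have := polar_of_isometry (Q := (toBilin' T).toQuadraticMap) (A := A) (fun v => by
      simpa [toBilin'_apply'] using h5 v) u v
    rw [polarBilin_toBilin'] at this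
    rw [← this, ← toBilin'_comp]
    rfl))
  have h7 := hR.det_ne_zero h4
  have h8 : ∀ G : Matrix (JI fun _ : Unit => 2 * k) (JI fun _ : Unit => 2 * k) F,
      (jform _ G (2 * k)).det = G (jlst _ ()) (jfst _ ()) := fun G =>
    det_eq_elem_of_subsingleton _ ⟨(), rfl⟩
  have h9 := det_jform_ne_zero h6 h7 (2 * k)
  refine ⟨2 * R.det * (jform _ R (2 * k)).det, mul_ne_zero (mul_ne_zero h2 h7) h9, fun G hG h0 => ?_⟩
  have h10 := det_mul_prod_jform h6 hG h7
  rw [image_const univ_nonempty, prod_singleton, prod_singleton, h8 G] at h10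
  have h11 : G.det ≠ 0 := left_ne_zero_of_mul (h10 ▸ mul_ne_zero h7 (pow_ne_zero _ h0))
  refine ⟨h11, isSquare_iff_of_isSquare_mul (mul_ne_zero (pow_ne_zero _ h2) h11)
    (mul_ne_zero (mul_ne_zero (mul_ne_zero h2 h7) h9) h0) ?_⟩
  rw [← isSquare_mul_self_mul_iff (pow_ne_zero k h9)]
  exact ⟨2 ^ (k + 1) * R.det * G (jlst _ ()) (jfst _ ()) ^ (k + 1), by
    linear_combination (2 ^ (2 * k + 2) * R.det * G (jlst _ ()) (jfst _ ())) * h10⟩

omit [DecidableEq m] in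
theorem exists_inc {f : m → n} (hf : Function.Injective f) {A : Matrix n n F} {B : Matrix m m F}
    (h1 : ∀ r q, A (f r) (f q) = B r q) (h2 : ∀ p q, (∀ r, f r ≠ p) → A p (f q) = 0) :
    ∃ Y : Matrix n m F, A * Y = Y * B ∧ ∀ H : Matrix n n F, Yᵀ * H * Y = H.submatrix f f := by
  classical
  refine ⟨of fun p r => if p = f r then 1 else 0, ext fun p q => ?_, fun H => ext fun p q => by
    simp [mul_apply]⟩
  by_cases h : ∃ r, f r = p
  · obtain ⟨r, rfl⟩ := h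
    simp [mul_apply, h1, hf.eq_iff]
  · simp [mul_apply, h2 p q (not_exists.1 h), fun r => Ne.symm (not_exists.1 h r)]

theorem exists_inc_jm {T : Type*} [Fintype T] [DecidableEq T] (d : T → ℕ) (t : T) :
    ∃ Y : Matrix (JI d) (JI fun _ : Unit => d t) F, jm d F * Y = Y * jm (fun _ : Unit => d t) F ∧
      ∀ H : Matrix (JI d) (JI d) F, (Yᵀ * H * Y) (jlst _ ()) (jfst _ ()) = H (jlst d t) (jfst d t) := by
  obtain ⟨Y, h1, h2⟩ := exists_inc (f := fun p : JI fun _ : Unit => d t => (⟨t, p.2⟩ : JI d))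
    (fun p q h => Sigma.ext rfl (Sigma.mk.inj h).2) (A := jm d F) (B := jm (fun _ : Unit => d t) F)
    (fun ⟨_, r⟩ ⟨_, q⟩ => (blockDiagonal'_apply_eq _ _ _ _).trans (blockDiagonal'_apply_eq
      (fun _ : Unit => Cfsg.jordanBlock (d t + 1) F) () r q).symm)
    fun p q h => blockDiagonal'_apply_ne _ _ _ fun h' => h ⟨(), h' ▸ p.2⟩ (by subst h'; rfl)
  exact ⟨Y, h1, fun H => by rw [h2]; rfl⟩

theorem WModel.exists_inc (W : WModel F) (b : Bool) : ∃ (Y : Matrix W.I (JI (W.d b)) F) (c : F),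
    W.mat * Y = Y * (c • jm (W.d b) F) ∧ ∀ H, Yᵀ * H * Y = W.g H b := by
  cases b
  · obtain ⟨Y, h⟩ := CfsgLib.MatConj.exists_inc (f := fun p => (Sum.inl (Sum.inr p) : W.I))
      (Sum.inl_injective.comp Sum.inr_injective) (A := W.mat) (B := (-1 : F) • jm _ F)
      (fun _ _ => by simp [mat]) (by rintro ((p | p) | p) q h <;> simp [mat] at h ⊢)
    exact ⟨Y, _, h⟩
  · obtain ⟨Y, h⟩ := CfsgLib.MatConj.exists_inc (f := fun p => (Sum.inr p : W.I))
      Sum.inr_injective (A := W.mat) (B := (1 : F) • jm _ F)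
      (fun _ _ => by simp [mat]) (by rintro (p | p) q h <;> simp [mat] at h ⊢)
    exact ⟨Y, _, h⟩

section Split

variable [Finite F] (h2 : (2 : F) ≠ 0) {ι : Type} [Fintype ι] [DecidableEq ι]
  {Q : QuadraticForm F (ι → F)} (hQ : (polarBilin Q).Nondegenerate)
  (h24 : Nat.card F ≠ 2 ∨ Module.finrank F (ι → F) ≠ 4) (u : ℤˣ)

/-- Elements all of whose improper centralising elements have the same spinor norm. -/
def IsSpl (g : Cfsg.isometryGroup F ⇑Q) : Prop :=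
  ∀ s, Commute g s → dickson hQ h24 (toOG Q s) = -1 → spinor hQ h24 (toOG Q s) = u

variable {hQ h24 u}
include h2

theorem exists_kappa_isSpl {i : ℕ} (hi : Even i) : ∃ κ : F, κ ≠ 0 ∧ ∀ g, IsSpl hQ h24 u g →
    ∀ (W : WModel F) H, Transp g.1.1 (Orth.gram Q (Pi.basisFun F ι)) W.mat H →
      ∀ b (v : {s // W.d b s = i} → F), v ⬝ᵥ jform _ (W.g H b) i *ᵥ v ≠ 0 →
        (IsSquare (κ * v ⬝ᵥ jform _ (W.g H b) i *ᵥ v) ↔ u = 1) := by
  obtain ⟨κ, h3, h4⟩ := exists_kappa h2 hi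
  refine ⟨κ, h3, fun g hg W H hH b v hv => ?_⟩
  obtain ⟨t, rfl⟩ : Nonempty {s // W.d b s = i} := not_isEmpty_iff.1 fun _ => hv (by simp)
  have h5 := (WModel.eq_asm h2 (hH.inv ((isoGrp_orth h2 hQ).mem g))).2.2 b
  obtain ⟨P, P', -, -, h6, rfl⟩ := hH
  obtain ⟨Y, c, h7, h8⟩ := W.exists_inc b
  obtain ⟨Z, h9, h10⟩ := exists_inc_jm (F := F) (W.d b) t
  let w : ∀ j, Matrix {s // W.d b s = j} {s // W.d b s = j} F := fun j =>
    of fun s _ => if h : W.d b s.1 = W.d b t then v ⟨s.1, h⟩ else 0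
  have h11 := commute_jlift w
  have h12 : (P * Y * jlift w * Z)ᵀ * Orth.gram Q (Pi.basisFun F ι) * (P * Y * jlift w * Z) =
      Zᵀ * ((jlift w)ᵀ * W.g (Pᵀ * Orth.gram Q (Pi.basisFun F ι) * P) b * jlift w) * Z := by
    simp only [← h8, cong_cong, Matrix.mul_assoc P, Matrix.mul_assoc Y]
  generalize W.g (Pᵀ * Orth.gram Q (Pi.basisFun F ι) * P) b = H at *
  have h13 : (Zᵀ * ((jlift w)ᵀ * H * jlift w) * Z) (jlst _ ()) (jfst _ ()) =
      v ⬝ᵥ jform _ H (W.d b t) *ᵥ v := by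
    rw [h10]
    refine (congrFun (congrFun (jform_cong h5 h11 _) ⟨t, rfl⟩) ⟨t, rfl⟩).trans ?_
    rw [jrho_jlift, Matrix.mul_assoc]
    simp [mul_apply, dotProduct, mulVec, w, fun s : {s // W.d b s = W.d b t} => s.2]
  obtain ⟨h14, h15⟩ := h4 _ (by rw [cong_cong, ← h9, ← cong_cong, inv_cong h5 h11]) (h13 ▸ hv)
  obtain ⟨s, h16, h17, h18⟩ := exists_refl_isometry h2 hQ h24 g (Y := P * Y * jlift w * Z)
    (B := c • jm (fun _ : Unit => W.d b t) F) (by
      simp only [← Matrix.mul_assoc, h6]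
      simp only [Matrix.mul_assoc, ← Matrix.mul_assoc W.mat, h7, Matrix.smul_mul, Matrix.mul_smul,
        ← h9, ← Matrix.mul_assoc (jm (W.d b) F), ← h11.eq]) (h12 ▸ h14)
  simp only [Fintype.card_sigma, Fintype.card_fin, Fintype.sum_unique] at h17 h18
  rw [← h13, ← h15, ← h12, ← h18, hg s h16 (h17.trans hi.add_one.neg_one_pow)]

theorem IsSpl.card_le_one {g : Cfsg.isometryGroup F ⇑Q} (hg : IsSpl hQ h24 u g) {W : WModel F}
    {H : Matrix W.I W.I F} (hH : Transp g.1.1 (Orth.gram Q (Pi.basisFun F ι)) W.mat H) (b : Bool)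
    {i : ℕ} (hi : Even i) : #{s | W.d b s = i} ≤ 1 := by
  have hΓ := isoGrp_orth h2 hQ
  obtain ⟨κ, h3, h4⟩ := exists_kappa_isSpl h2 (hQ := hQ) (h24 := h24) (u := u) hi
  by_contra h5
  have h6 := transpose_jform ((WModel.eq_asm h2 (hH.inv (hΓ.mem g))).2.2 b)
    ((WModel.transpose_g (hH.transpose hΓ.sym)).2 b) i
  have h7 := WModel.det_jform_g_ne_zero h2 (hH.inv (hΓ.mem g)) (hH.det_ne_zero hΓ.det) b i
  have h8 := fun c => exists_Q_eq (Q := (toBilin' (jform _ (W.g H b) i)).toQuadraticMap) (by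
    rw [polarBilin_toBilin', h6, add_zero, hi.neg_one_pow, one_smul, ← two_smul F]
    exact nondeg_toBilin' _ (by simp [h2, h7])) (by
      rw [Module.finrank_fintype_fun_eq_card, Fintype.card_subtype]; omega) c
  obtain ⟨ν, hν⟩ := exists_not_isSquare h2
  have h9 : ∀ c, c ≠ 0 → (IsSquare (κ * c) ↔ u = 1) := fun c hc => by
    obtain ⟨v, rfl⟩ := h8 c
    simp only [LinearMap.BilinMap.toQuadraticMap_apply, toBilin'_apply'] at hc ⊢
    exact h4 g hg W H hH b v hc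
  have h10 := (h9 (κ * ν) (mul_ne_zero h3 fun h => hν (by simp [h]))).2 ((h9 κ h3).1 ⟨κ, rfl⟩)
  rw [← mul_assoc, isSquare_mul_self_mul_iff h3] at h10
  exact hν h10

theorem IsSpl.isConj {g g' : Cfsg.isometryGroup F ⇑Q} (hg : IsSpl hQ h24 u g) (hg' : IsSpl hQ h24 u g')
    (h : IsConj g.1.1 g'.1.1) : IsConj g g' := by
  have hΓ := isoGrp_orth h2 hQ
  obtain ⟨W, hW⟩ := exists_wModel h2 g.1.1
  obtain ⟨H, hH⟩ := exists_transp hW (Orth.gram Q (Pi.basisFun F ι))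
  obtain ⟨H', hH'⟩ := exists_transp ((isConj_iff_edM.1 h).symm.trans hW) (Orth.gram Q (Pi.basisFun F ι))
  refine (hΓ.cong_iff hH hH').1 (WModel.cong_of_isSquare h2 (hH.inv (hΓ.mem g)) (hH'.inv (hΓ.mem g'))
    (hH.transpose hΓ.sym) (hH'.transpose hΓ.sym) (hH.det_ne_zero hΓ.det) (hH'.det_ne_zero hΓ.det)
    fun b i (hi : Even i) => ?_)
  rcases isEmpty_or_nonempty {s // W.d b s = i} with h3 | ⟨⟨t⟩⟩
  · simp
  have : Subsingleton {s // W.d b s = i} := Fintype.card_le_one_iff_subsingleton.1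
    ((Fintype.card_subtype _).trans_le (hg.card_le_one h2 hH b hi))
  obtain ⟨κ, h3, h4⟩ := exists_kappa_isSpl h2 (hQ := hQ) (h24 := h24) (u := u) hi
  have h5 : ∀ M : Matrix {s // W.d b s = i} {s // W.d b s = i} F,
      Pi.single t 1 ⬝ᵥ M *ᵥ Pi.single t 1 = M.det := fun M => by
    simp [det_eq_elem_of_subsingleton M t]
  have h6 := WModel.det_jform_g_ne_zero h2 (hH.inv (hΓ.mem g)) (hH.det_ne_zero hΓ.det) b i
  have h7 := WModel.det_jform_g_ne_zero h2 (hH'.inv (hΓ.mem g')) (hH'.det_ne_zero hΓ.det) b i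
  have h8 := (h4 g hg W H hH b (Pi.single t 1) (h5 _ ▸ h6)).trans
    (h4 g' hg' W H' hH' b (Pi.single t 1) (h5 _ ▸ h7)).symm
  rw [h5, h5, ← isSquare_mul_iff (mul_ne_zero h3 h6) (mul_ne_zero h3 h7), mul_mul_mul_comm,
    isSquare_mul_self_mul_iff h3] at h8
  exact h8

theorem IsSpl.mem_famD {g : Cfsg.isometryGroup F ⇑Q} (hg : IsSpl hQ h24 u g) {K : ℕ}
    (hK : Fintype.card ι ≤ K) : matD K g.1.1 ∈
      famD K (fun i => monS (if Even i then Spl else Pal) (Fintype.card ι)) (Fintype.card ι) := by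
  have hΓ := isoGrp_orth h2 hQ
  obtain ⟨W, hW⟩ := exists_wModel h2 g.1.1
  obtain ⟨H, hH⟩ := exists_transp hW (Orth.gram Q (Pi.basisFun F ι))
  refine matD_mem_famD hK (P := fun i => if Even i then Spl else Pal) fun i => ?_
  rw [matD, hW]
  split_ifs with h
  · exact ⟨_, _, WModel.pal_toData h2 (hH.inv (hΓ.mem g)) (hH.det_ne_zero hΓ.det) i,
      W.not_pm_dvd _ _, fun b => hg.card_le_one h2 hH b h, W.toData_mat i⟩
  · exact WModel.pal_toData_mat h2 (hH.inv (hΓ.mem g)) (hH.det_ne_zero hΓ.det) (hH.transpose hΓ.sym)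
      (Nat.not_even_iff_odd.1 h)

end Split

theorem card_isSpl_le [Fintype F] (hq : Odd (Fintype.card F)) {ι : Type} [Fintype ι] [DecidableEq ι]
    {Q : QuadraticForm F (ι → F)} (hQ : (polarBilin Q).Nondegenerate)
    (h24 : Nat.card F ≠ 2 ∨ Module.finrank F (ι → F) ≠ 4) (u : ℤˣ) (hn : Odd (Fintype.card ι)) :
    (Nat.card {C : ConjClasses (Cfsg.isometryGroup F ⇑Q) //
      ∃ g, ConjClasses.mk g = C ∧ IsSpl hQ h24 u g} : ℝ) ≤
      24 / 5 * (Fintype.card F : ℝ) ^ (Fintype.card ι / 2) := by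
  have h2 := two_ne_zero_of_odd_card hq
  have hK : Fintype.card ι ≤ 2 * (Fintype.card ι + 1) := by omega
  refine (card_classes_le_sum _ _ _ (fun g hg => hg.mem_famD h2 hK) (fun _ => 1) fun x _ => ?_).trans ?_
  · exact Nat.cast_le_one.2 <| card_classes_le_one fun g g' hg hg' =>
      hg.1.isConj h2 hg'.1 ((matD_eq_iff hK).1 (hg.2.trans hg'.2.symm))
  · rw [sum_const, nsmul_one]
    refine (card_famD_le _ _ (G := fun i => if Even i then (1 + PowerSeries.X) ^ 2 *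
      PowerSeries.expand 2 two_ne_zero (hGL (Nat.card F)) else geo2 (Nat.card F))
      (fun i => ?_) _).trans ?_
    · split_ifs
      exacts [gfS_spl_le _, gfS_pal_le _]
    · have := bd_Omega (IsoGrp.three_le_of_odd hq) (Fintype.card ι) (Fintype.card ι)
      simp only [prod_range_two_mul, Nat.even_add_one, even_two_mul, not_true, if_true, if_false, wt2,
        Nat.not_even_iff_odd.2 hn, Nat.card_eq_fintype_card] at this ⊢
      linarith

theorem four_mul_card_omega [Finite F] (h2 : (2 : F) ≠ 0) {ι : Type} [Fintype ι] [DecidableEq ι]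
    {Q : QuadraticForm F (ι → F)} (hQ : (polarBilin Q).Nondegenerate)
    (h24 : Nat.card F ≠ 2 ∨ Module.finrank F (ι → F) ≠ 4) (hn : Odd (Fintype.card ι))
    (hn' : 2 ≤ Fintype.card ι) : ∃ (u : ℤˣ) (k : ℕ), 4 * Nat.card (ConjClasses (Cfsg.Omega F ⇑Q)) =
      Nat.card (ConjClasses (Cfsg.isometryGroup F ⇑Q)) + 3 * k ∧ k ≤ Nat.card {C : ConjClasses
        (Cfsg.isometryGroup F ⇑Q) // ∃ g, ConjClasses.mk g = C ∧ IsSpl hQ h24 u g} := by
  let δ := (dickson hQ h24).comp (toOG Q).toMonoidHom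
  let θ := (spinor hQ h24).comp (toOG Q).toMonoidHom
  let z := (toOG Q).symm (negOG Q)
  have h1 : δ z = -1 := by
    have h3 := det_eq_dickson hQ h24 (negOG Q)
    rw [show ((negOG Q).1 : (ι → F) →ₗ[F] (ι → F)) = (-1 : F) • LinearMap.id from
      LinearMap.ext fun v => by simp [negOG_apply], LinearMap.det_smul, LinearMap.det_id,
      Module.finrank_fintype_fun_eq_card, hn.neg_one_pow] at h3
    refine (Int.units_eq_one_or _).resolve_left fun h => h2 ?_
    simp only [δ, z, MonoidHom.comp_apply, MulEquiv.coe_toMonoidHom, MulEquiv.apply_symm_apply] at h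
    rw [h] at h3
    linear_combination (norm := (push_cast; ring)) -h3
  refine ⟨θ z, _, four_mul_card_conjClasses (if θ z = 1 then θ else θ * δ) δ _ (fun g => ?_)
    ((index_Omega Q).trans (index_commutator_of_two_ne_zero hQ h2 (by simpa using hn'))) (z := z)
    (fun g => (toOG Q).injective (Subtype.ext (LinearEquiv.ext fun v => by simp [z, negOG_apply])))
    ?_ h1, Nat.card_le_card_of_injective (fun C => ⟨C.1, C.2.imp fun g hg => ⟨hg.1, fun s hs h => ?_⟩⟩)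
      fun _ _ h => Subtype.ext (Subtype.mk.inj h)⟩
  · rw [mem_Omega_iff, mem_commutator_iff hQ h24, and_comm]
    refine and_congr_left fun h => ?_
    split_ifs <;> simp [θ, δ, h]
  · split_ifs with h
    · exact h
    · simp [h1, Int.units_ne_iff_eq_neg.1 h]
  · have h3 := hg.2 s hs
    split_ifs at h3 with h4
    · exact h3.trans h4.symm
    · rw [Int.units_ne_iff_eq_neg.1 h4]
      simpa [θ, δ, h, neg_eq_iff_eq_neg] using h3

end CfsgLib.MatConj
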