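import Cfsg.Agent.Lib.MatConj.WallCount

/-!
Lower bounds for the class numbers of orthogonal groups in odd characteristic.
-/

set_option autoImplicit false

namespace CfsgLib.MatConj

open Polynomial Matrix Finset QuadraticMap CfsgLib.Orth

variable {F : Type*} [Field F] {n : Type*} [Fintype n] [DecidableEq n]

theorem polar_eq_toBilin' (Q : QuadraticForm F (n → F)) (u v : n → F) :
    polar Q u v = toBilin' (Orth.gram Q (Pi.basisFun F n)) u v := by
  rw [gram_eq_toMatrix, LinearMap.BilinForm.toMatrix_basisFun, toBilin'_toMatrix', polarBilin_apply_apply]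

theorem gram_inv_iff (h2 : (2 : F) ≠ 0) (Q : QuadraticForm F (n → F)) (A : Matrix n n F) :
    Aᵀ * Orth.gram Q (Pi.basisFun F n) * A = Orth.gram Q (Pi.basisFun F n) ↔ ∀ v, Q (A *ᵥ v) = Q v := by
  refine ⟨fun h v => mul_left_cancel₀ h2 ?_, fun h => toBilin'.injective (LinearMap.ext₂ fun u v => ?_)⟩
  · have := dot_mulVec_of_gram h v v
    rwa [← toBilin'_apply', ← toBilin'_apply', ← polar_eq_toBilin', ← polar_eq_toBilin', polar_self,
      polar_self, two_smul, two_smul, ← two_mul, ← two_mul] at this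
  · have := polar_of_isometry h u v
    rw [polarBilin_apply_apply, polarBilin_apply_apply, polar_eq_toBilin', polar_eq_toBilin'] at this
    rw [← this, ← toBilin'_comp]
    rfl

theorem isoGrp_orth (h2 : (2 : F) ≠ 0) {ι : Type} [Fintype ι] [DecidableEq ι]
    {Q : QuadraticForm F (ι → F)} (hQ : (polarBilin Q).Nondegenerate) :
    IsoGrp ((Units.coeHom _).comp (Cfsg.isometryGroup F ⇑Q).subtype) (Orth.gram Q (Pi.basisFun F ι)) 0 where
  inj := Units.val_injective.comp Subtype.val_injective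
  mem g := (gram_inv_iff h2 Q _).2 (mem_isometryGroup.1 g.2)
  sur A h := ⟨⟨GeneralLinearGroup.mkOfDetNeZero A (det_ne_zero_of_inv h (det_gram_ne_zero hQ _)),
    mem_isometryGroup.2 ((gram_inv_iff h2 Q _).1 h)⟩, rfl⟩
  det := det_gram_ne_zero hQ _
  sym := by
    ext i j
    simp [Orth.gram, polar_comm]

theorem isSquare_det_of_skew [Finite F] (h2 : (2 : F) ≠ 0) {S : Matrix n n F} (h : Sᵀ = -S) :
    IsSquare S.det := by
  by_cases h0 : S.det = 0
  · simp [h0]
  obtain ⟨m, hm⟩ : Even (Fintype.card n) := by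
    have h1 := congrArg det h
    rw [det_transpose, det_neg] at h1
    by_contra h3
    rw [(Nat.not_even_iff_odd.1 h3).neg_one_pow] at h1
    exact mul_ne_zero h2 h0 (by linear_combination h1)
  have e : Fin m ⊕ Fin m ≃ n := Fintype.equivOfCardEq (by simp [hm])
  have h1 : (reindex e e (J (Fin m) F)).det = 1 := by
    rw [det_reindex_self, SymplecticGroup.det_eq_one (SymplecticGroup.J_mem _ _)]
  obtain ⟨g, rfl⟩ := exists_cong_of_sign h2 (H := reindex e e (J (Fin m) F)) (H' := S) (r := 1)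
    (by rw [transpose_reindex, J_transpose]; ext; simp) (by simpa using h) (h1 ▸ one_ne_zero) h0 (by simp)
  exact ⟨g.det, by rw [det_cong, h1, mul_one]⟩

theorem det_sub_one_mul_det_add_one (A : Matrix n n F) (hn : Even (Fintype.card n)) :
    (A - 1).det * (A + 1).det = A.charpoly.eval 1 * A.charpoly.eval (-1) := by
  rw [eval_charpoly, eval_charpoly, map_neg, map_one, ← neg_sub, det_neg, ← neg_add', det_neg,
    hn.neg_one_pow, add_comm A]
  simp

theorem isSquare_eval_mul_det [Finite F] (h2 : (2 : F) ≠ 0) {A H : Matrix n n F} (h : Hᵀ = H)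
    (hA : Aᵀ * H * A = H) (hn : Even (Fintype.card n)) :
    IsSquare (A.charpoly.eval 1 * A.charpoly.eval (-1) * H.det) := by
  have h3 := isSquare_det_of_skew h2 (S := (A + 1)ᵀ * H * (A - 1)) (by
    simp only [transpose_mul, transpose_add, transpose_sub, transpose_one, transpose_transpose, h,
      add_mul, mul_sub, one_mul, mul_one, hA]
    abel)
  rwa [Matrix.det_mul, Matrix.det_mul, det_transpose, mul_right_comm, mul_comm (det _),
    det_sub_one_mul_det_add_one A hn] at h3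

theorem exists_symm_charpoly [Finite F] (h2 : (2 : F) ≠ 0) (k : ℕ) : ∀ f : F[X], f.natDegree = k →
    f.Monic → SR f → ∀ δ : F, δ ≠ 0 → (∃ b, pm F b ∣ f) ∨ IsSquare (f.eval 1 * f.eval (-1) * δ) →
    ∃ (ι : Type) (_ : Fintype ι) (_ : DecidableEq ι) (A H : Matrix ι ι F), A.charpoly = f ∧ Hᵀ = H ∧
      H.det ≠ 0 ∧ Aᵀ * H * A = H ∧ IsSquare (δ * H.det) := by
  induction k using Nat.strong_induction_on with
  | h k ih =>
  intro f hk hm hf δ hδ h
  by_cases h1 : ∃ b, pm F b ∣ f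
  · obtain ⟨b, g, rfl⟩ := h1
    have h3 := (pm_facts' b).2.1.of_mul_monic_left hm
    obtain ⟨δ', h4, h5⟩ : ∃ δ' : F, δ' ≠ 0 ∧
        ((∃ b, pm F b ∣ g) ∨ IsSquare (g.eval 1 * g.eval (-1) * δ')) := by
      by_cases h4 : ∃ b, pm F b ∣ g
      · exact ⟨1, one_ne_zero, Or.inl h4⟩
      · exact ⟨_, mul_ne_zero (pm_dvd_iff.not.1 (not_exists.1 h4 true))
          (pm_dvd_iff.not.1 (not_exists.1 h4 false)), Or.inr (IsSquare.mul_self _)⟩
    obtain ⟨ι, _, _, A, H, rfl, h6, h7, h8, -⟩ := ih _ (by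
      rw [← hk, (pm_facts' b).2.1.natDegree_mul h3, (pm_facts' b).2.2.2.2]; omega) g rfl h3
      ((sr_pm b).of_mul hf) δ' h4 h5
    refine ⟨Unit ⊕ ι, inferInstance, inferInstance,
      fromBlocks (of fun _ _ => if b then 1 else -1) 0 0 A,
      fromBlocks (of fun _ _ => δ * H.det) 0 0 H, ?_, ?_, by simp [hδ, h7], ?_,
      ⟨δ * H.det, by simp; ring⟩⟩
    · rw [charpoly_fromBlocks_zero₁₂, charpoly, det_unique]
      cases b <;> simp [pm]
    · rw [fromBlocks_transpose, h6]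
      simp only [transpose_zero]
      rfl
    · simp only [fromBlocks_transpose, fromBlocks_multiply, transpose_zero, Matrix.mul_zero,
        Matrix.zero_mul, add_zero, zero_add, h8]
      congr 1
      ext
      cases b <;> simp [mul_apply]
  · have h3 := hf.pal h2 (not_exists.1 h1)
    obtain ⟨A, h4, rfl⟩ := exists_edM_one_charpoly_eq (n := Fin k) hm (by simp [hk])
    have h5 : Even (Fintype.card (Fin k)) := A.charpoly_natDegree_eq_dim ▸ h3.1
    have h6 : A.det = 1 := by rw [det_eq_of_charpoly, h3.2.1, h5.neg_one_pow, one_mul]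
    have h7 : IsUnit A := (isUnit_iff_isUnit_det _).2 (h6 ▸ isUnit_one)
    have h8 : A.charpoly.eval 1 * A.charpoly.eval (-1) ≠ 0 :=
      mul_ne_zero (pm_dvd_iff.not.1 (not_exists.1 h1 true)) (pm_dvd_iff.not.1 (not_exists.1 h1 false))
    have h9 := mul_ne_zero_iff.1 (det_sub_one_mul_det_add_one A h5 ▸ h8)
    obtain ⟨T, h10, h11, -⟩ := exists_gram_of_recip h7 ((isUnit_iff_isUnit_det _).2 h9.1.isUnit)
      ((isUnit_iff_isUnit_det _).2 h9.2.isUnit) (map_tilde_edM_of_exp_one (fun _ => rfl) h7 h4 hf.2)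
    have h12 : (T + Tᵀ)ᵀ = T + Tᵀ := by simp [add_comm]
    have h13 : Aᵀ * (T + Tᵀ) * A = T + Tᵀ := by
      rw [mul_add, add_mul, h10]
      simpa [Matrix.mul_assoc] using congrArg transpose h10
    have h14 := ((isUnit_iff_isUnit_det _).1 h11).ne_zero
    refine ⟨_, _, _, A, _, rfl, h12, h14, h13, ?_⟩
    have h15 := isSquare_eval_mul_det h2 h12 h13 h5
    have h16 := h.resolve_left h1
    rw [isSquare_mul_iff h8 (by assumption)] at h15 h16
    rw [isSquare_mul_iff hδ h14, ← h15, h16]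

theorem IsoGrp.exists_charpoly [Finite F] (h2 : (2 : F) ≠ 0) {Γ : Type*} [Group Γ]
    {ι : Γ →* Matrix n n F} {G : Matrix n n F} (hΓ : IsoGrp ι G 0) {f : F[X]} (hm : f.Monic)
    (hf : SR f) (hn : f.natDegree = Fintype.card n)
    (h : (∃ b, pm F b ∣ f) ∨ IsSquare (f.eval 1 * f.eval (-1) * G.det)) : ∃ g, (ι g).charpoly = f := by
  obtain ⟨κ, _, _, A, H, rfl, h3, h4, h5, h6⟩ := exists_symm_charpoly h2 _ f rfl hm hf _ hΓ.det h
  obtain ⟨B, h7, h8⟩ := exists_transp_of_sign h2 hΓ.sym (by simpa using h3) hΓ.det h4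
    (A.charpoly_natDegree_eq_dim.symm.trans hn) (fun _ => h6) h5
  obtain ⟨g, rfl⟩ := hΓ.sur B h7
  exact ⟨g, by rw [charpoly_eq_prod_edM, h8.edM_eq, charpoly_eq_prod_edM]⟩

theorem card_le_card_conjClasses {Γ : Type*} [Group Γ] [Finite Γ] (ι : Γ →* Matrix n n F)
    {P : F[X] → Prop} (h : ∀ f, P f → ∃ g, (ι g).charpoly = f) :
    Nat.card {f // P f} ≤ Nat.card (ConjClasses Γ) := by
  choose g hg using h
  exact Nat.card_le_card_of_injective (fun f => ConjClasses.mk (g f.1 f.2)) fun f f' h =>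
    Subtype.ext (by rw [← hg f.1 f.2, ← hg f'.1 f'.2,
      charpoly_eq_of_isConj (ι.map_isConj (ConjClasses.mk_eq_mk_iff_isConj.1 h))])

theorem card_pal [Finite F] (m : ℕ) :
    Nat.card {f : F[X] // f.Monic ∧ f.natDegree = 2 * m ∧ Pal f} = Nat.card F ^ m := by
  have := coeff_ser_pal (F := F) (2 * m)
  rw [ser, PowerSeries.coeff_mk, PowerSeries.coeff_expand, if_pos (dvd_mul_right _ _),
    Nat.mul_div_cancel_left _ two_pos, coeff_geo] at this
  exact_mod_cast this

theorem pal_add {m : ℕ} {f : F[X]} (hm : f.Monic) (hd : f.natDegree = 2 * (m + 2)) (hf : Pal f) (c : F) :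
    (f + C c * (X ^ (m + 1) * (X + 1) ^ 2)).Monic ∧
      (f + C c * (X ^ (m + 1) * (X + 1) ^ 2)).natDegree = 2 * (m + 2) ∧
      Pal (f + C c * (X ^ (m + 1) * (X + 1) ^ 2)) := by
  have h1 : (C c * (X ^ (m + 1) * (X + 1) ^ 2) : F[X]).natDegree < f.natDegree := by
    rw [hd]
    compute_degree!
    omega
  have h2 := (natDegree_add_eq_left_of_natDegree_lt h1).trans hd
  have h3 : ∀ i, (f + C c * (X ^ (m + 1) * (X + 1) ^ 2)).coeff i = f.coeff i + c *
      ((if i = m + 3 then 1 else 0) + 2 * (if i = m + 2 then 1 else 0) + if i = m + 1 then 1 else 0) :=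
    fun i => by
      rw [show (X ^ (m + 1) * (X + 1) ^ 2 : F[X]) = X ^ (m + 3) + C 2 * X ^ (m + 2) + X ^ (m + 1) by
        rw [map_ofNat]; ring]
      simp only [coeff_add, coeff_C_mul, coeff_X_pow]
  have h4 : (f + C c * (X ^ (m + 1) * (X + 1) ^ 2)).coeff 0 = 1 := by simp [hf.2.1]
  refine ⟨hm.add_of_left (degree_lt_degree h1), h2, h2 ▸ even_two_mul _, h4,
    (tilde_eq_self_iff_coeff (h4 ▸ one_ne_zero)).2 fun i hi => ?_⟩
  have h5 := (tilde_eq_self_iff_coeff hf.sr.1).1 hf.2.2 i (hd ▸ h2 ▸ hi)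
  rw [h2] at hi
  simp only [RingHom.id_apply, h4, hf.2.1, one_mul, h2, hd, h3] at h5 ⊢
  rw [h5]
  split_ifs <;> first | omega | ring

variable [Finite F] (h2 : (2 : F) ≠ 0) {Γ : Type*} [Group Γ] {ι : Γ →* Matrix n n F}
  {G : Matrix n n F} (hΓ : IsoGrp ι G 0)
include h2 hΓ

theorem IsoGrp.le_card_odd {m : ℕ} (hn : Fintype.card n = 2 * m + 1) :
    2 * Nat.card F ^ m ≤ Nat.card (ConjClasses Γ) := by
  have := Finite.of_injective _ hΓ.inj
  have := finite_monic (fun f : F[X] => SR f ∧ ∃ b, pm F b ∣ f) (2 * m + 1)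
  refine le_trans ?_ (card_le_card_conjClasses ι
    (P := fun f => f.Monic ∧ f.natDegree = 2 * m + 1 ∧ SR f ∧ ∃ b, pm F b ∣ f)
    fun f hf => hΓ.exists_charpoly h2 hf.1 hf.2.2.1 (hf.2.1.trans hn.symm) (Or.inl hf.2.2.2))
  rw [← card_pal, show ∀ k, 2 * k = Nat.card Bool * k by simp, ← Nat.card_prod]
  refine Nat.card_le_card_of_injective (fun x => ⟨pm F x.1 * x.2.1, (pm_facts' _).2.1.mul x.2.2.1,
    by rw [(pm_facts' _).2.1.natDegree_mul x.2.2.1, (pm_facts' _).2.2.2.2, x.2.2.2.1, add_comm],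
    (sr_pm _).mul x.2.2.2.2.sr, _, dvd_mul_right _ _⟩) ?_
  rintro ⟨b, f⟩ ⟨c, g⟩ h
  have h3 := Subtype.mk.inj h
  obtain rfl : b = c := by
    have h4 := congrArg (coeff · 0) h3
    simp only [mul_coeff_zero, f.2.2.2.2.1, g.2.2.2.2.1, mul_one] at h4
    cases b <;> cases c <;> simp [pm] at h4 ⊢
    exacts [h2 (by linear_combination h4), h2 (by linear_combination -h4)]
  exact Prod.ext rfl (Subtype.ext (mul_left_cancel₀ (pm_facts' b).2.1.ne_zero h3))

theorem IsoGrp.le_two_mul_card_even {m : ℕ} (hn : Fintype.card n = 2 * (m + 2)) :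
    Nat.card F ^ (m + 2) ≤ 2 * Nat.card (ConjClasses Γ) := by
  classical
  have := Finite.of_injective _ hΓ.inj
  let P : F[X] → Prop := fun f => (∃ b, pm F b ∣ f) ∨ IsSquare (f.eval 1 * f.eval (-1) * G.det)
  have := finite_monic (fun f : F[X] => Pal f ∧ P f) (2 * (m + 2))
  refine le_trans ?_ (Nat.mul_le_mul_left 2 (card_le_card_conjClasses ι
    (P := fun f => f.Monic ∧ f.natDegree = 2 * (m + 2) ∧ Pal f ∧ P f)
    fun f hf => hΓ.exists_charpoly h2 hf.1 hf.2.2.1.sr (hf.2.1.trans hn.symm) hf.2.2.2))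
  obtain ⟨ν, hν⟩ := exists_not_isSquare h2
  have h0 : ν ≠ 0 := fun h => hν (by simp [h])
  have h4 : (4 : F) ≠ 0 := by
    rw [show (4 : F) = 2 * 2 by norm_num]
    exact mul_ne_zero h2 h2
  have h3 : ∀ f : F[X], eval 1 (f + C ((ν - 1) * f.eval 1 / 4) * (X ^ (m + 1) * (X + 1) ^ 2)) =
      ν * f.eval 1 := fun f => by
    simp only [eval_add, eval_mul, eval_C, eval_pow, eval_X, eval_one]
    field_simp
    ring
  rw [← card_pal, two_mul (Nat.card _), ← Nat.card_sum]
  refine Nat.card_le_card_of_injective (fun f => if h : P f.1 then .inl ⟨f.1, f.2.1, f.2.2.1, f.2.2.2, h⟩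
    else .inr ⟨_, (pal_add f.2.1 f.2.2.1 f.2.2.2 ((ν - 1) * f.1.eval 1 / 4)).1,
      (pal_add f.2.1 f.2.2.1 f.2.2.2 _).2.1, (pal_add f.2.1 f.2.2.1 f.2.2.2 _).2.2, Or.inr (by
        have h6 := (not_or.1 h).2
        rw [h3, eval_add, eval_mul, eval_mul, eval_pow, eval_pow, eval_add, eval_X, eval_one,
          neg_add_cancel, zero_pow two_ne_zero, mul_zero, mul_zero, add_zero, mul_assoc, mul_assoc,
          ← mul_assoc (eval 1 _)]
        exact (isSquare_mul_iff h0 fun h7 => h6 (by rw [h7]; exact IsSquare.zero)).2 (iff_of_false hν h6))⟩) fun f g hfg => Subtype.ext ?_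
  dsimp only at hfg
  split_ifs at hfg
  · simpa using hfg
  · have h5 := Subtype.mk.inj (Sum.inr.inj hfg)
    have h6 := congrArg (eval 1) h5
    rw [h3, h3] at h6
    rwa [mul_left_cancel₀ h0 h6, add_left_inj] at h5

end CfsgLib.MatConj
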